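import Cfsg.Agent.W4.H2
import Cfsg.Agent.W4.DA
import Cfsg.Agent.Loc.Sy1
import Cfsg.Agent.XG.R

/-! The grid configuration: exclusion of the outer extension. -/

set_option autoImplicit false
set_option linter.unusedSectionVars false

namespace CF.W4
open Cfsg Subgroup CF.Loc CF.Even CF.LX CF.J4 CF.Comp CF.Dce CF.XG
open CF.ThR (q8 b8)

variable {G : Type*} [Group G] [Finite G] {Q : G → Subgroup G} {D : Set G} {z t s d x : G} {π : G → ℕ} {c p M N : ℕ}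

local notation "𝐀" => J4.Ac 8 (Q z) π

theorem inner_sub {P W : Subgroup G} (h : EX P z) (hz : z ∈ W) (hW : W ≤ P) (sz : s * z = z * s)
    (k : ∀ x ∈ W, s⁻¹ * x * s = x ∨ s⁻¹ * x * s = x * z) : ∃ q ∈ P, ∀ x ∈ W, x * (s * q) = s * q * x := by
  have e : ∀ {x}, s⁻¹ * x * s = x ↔ x * s = s * x := fun {x} => by rw [mul_assoc, inv_mul_eq_iff_eq_mul]
  by_cases n : ∀ x ∈ W, x * s = s * x
  · exact ⟨1, one_mem _, by simpa using n⟩
  push Not at n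
  obtain ⟨x, hx, n⟩ := n
  obtain ⟨q, hq, c, l⟩ := h.exists_move (W := W ⊓ 𝐂₁(s)) ⟨hz, mem_c1.2 sz.symm⟩ (inf_le_left.trans hW) (hW hx)
    fun l => n (mem_c1.1 l.2)
  have a := (k x hx).resolve_left (mt e.1 n)
  have u : ∀ y ∈ W, y * s = s * y → y * (s * q) = s * q * y := fun y hy m => by
    rw [← mul_assoc, m, mul_assoc, c y ⟨hy, mem_c1.2 m⟩, mul_assoc]
  have xq : x * (s * q) = s * q * x := by
    rw [show x * (s * q) = s * (s⁻¹ * x * s) * q by group, a, h.zc (hW hx), ← l]; group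
  refine ⟨q, hq, fun y hy => by_cases (u y hy) fun m => ?_⟩
  have := comm_mul xq (u (x⁻¹ * y) (mul_mem (inv_mem hx) hy) (e.1 (by
    rw [show s⁻¹ * (x⁻¹ * y) * s = (s⁻¹ * x * s)⁻¹ * (s⁻¹ * y * s) by group, a, (k y hy).resolve_left (mt e.1 m),
      mul_inv_rev, h.zi, ← h.zc (inv_mem (hW hx)), h.zc (hW hy), mul_assoc, ← mul_assoc z, h.zz, one_mul])))
  rwa [mul_inv_cancel_left] at this

namespace Cs
variable (C : Cs Q D z π 3 t)
include C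

theorem hΓ_act (k : gN Q z π M) (a : hΓ c) : hΓ (vm 8 c M) :=
  ⟨vm_lt 8 _ _, (C.Γ _ (vm_lt 8 _ _)).1 (C.Γ_act ((C.Γ c a.1).2 a.2) k)⟩

theorem h_rk (k : gN Q z π M) : Rk hΓ hR hC (fun c => hR (vm 8 c M)) fun c => hC (vm 8 c M) := by
  obtain ⟨N, -, n1, n2, -⟩ := C.N_inv k
  refine ⟨fun i hi j hj => let ⟨v, a, b, d⟩ := h_P i hi j hj; ⟨v, ⟨a, b⟩, d⟩, fun x a => (h_E x a.1 a.2).1,
    fun x y a b => ?_⟩
  have a' := C.hΓ_act k a
  have l := Nat.xor_lt_two_pow (n := 8) a.1 b.1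
  rw [(h_E x a.1 a.2).2 y b.1 b.2, (h_E _ a'.1 a'.2).2 _ (vm_lt 8 _ _) (C.hΓ_act k b).2, ← vm_xor]
  refine or_congr ⟨fun e => by rw [e, vm_zero], fun e => by rw [← n2 _ l, e, vm_zero]⟩
    ⟨fun e => (C.hΓ_act k ⟨l, e⟩).2, fun e => n2 _ l ▸ (C.hΓ_act n1 ⟨vm_lt 8 _ _, e⟩).2⟩

theorem tr_one (a : 𝐀 d M) (e8 : vm 8 8 M = 8) (k : ∀ c ∈ [1, 16, 64, 14], vm 8 c M ^^^ c ∈ [0, 8, 98, 106]) :
    d ∈ Q z ∨ 𝐀 d hT := by
  have f : ∀ c ∈ [1, 16, 64, 14], vm 8 c M = c := fun c hc => (h_tr c hc).2 _ (vm_lt 8 _ _)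
    (C.hΓ_act ⟨d, a⟩ (h_tr c hc).1).2 (k c hc)
  simp only [List.forall_mem_cons, List.not_mem_nil, false_imp_iff, implies_true, and_true] at f
  obtain ⟨e1, e16, e64, e14⟩ := f
  have e6 : vm 8 6 M = 6 := by rw [show 6 = 14 ^^^ 8 from rfl, vm_xor, e8, e14]
  have e : ∀ c < 2 ^ 8, vm 8 c M = vm 8 c (hM (vm 8 2 M) (vm 8 32 M) (vm 8 128 M)) := fun c hc => by
    rw [← vm_pk p8 (f := (vm 8 · M)) (fun _ _ => vm_lt _ _ _) (fun _ _ _ _ => vm_xor _ _ _ _) c hc, hM]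
    refine congrArg _ (pk_congr fun i hi => ?_)
    interval_cases i
    exacts [e1, rfl, (vm_xor 8 2 6 M).trans (by rw [e6]; rfl), e8, e16, rfl, e64, rfl]
  have b : ∀ c < 256, ∀ v ∈ [1, 8, 16, 64, 6], b8 (vm 8 c M) v = b8 c v := fun c hc => by
    simp only [List.forall_mem_cons, List.not_mem_nil, false_imp_iff, implies_true, and_true]
    refine ⟨?_, ?_, ?_, ?_, ?_⟩ <;> rw [← C.b8_ac a hc (by decide)]
    exacts [by rw [e1], by rw [e8], by rw [e16], by rw [e64], by rw [e6]]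
  refine (h_fix _ (vm_lt 8 _ _) (b 2 (by decide)) _ (vm_lt 8 _ _) (b 32 (by decide)) _ (vm_lt 8 _ _) (b 128 (by decide))
    fun x hx l => e x hx ▸ (C.hΓ_act ⟨d, a⟩ ⟨hx, l⟩).2).imp (fun l => C.mem_of_ac ?_) fun l => ?_ <;>
    exact C.co.congr a fun c hc => by rw [e c hc, l]

theorem h_ix : ∃ K, IX z K ∧ ∀ s, 𝐀 s hT → s ∉ K := by
  let P : ℕ → Prop := fun M => ∀ x y, hΓ x → hΓ y → hR x = hR y → hR (vm 8 x M) = hR (vm 8 y M)
  have g1 : hΓ 55 := ⟨by decide, by decide +kernel⟩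
  have g2 : hΓ 126 := ⟨by decide, by decide +kernel⟩
  have e : hR 55 = hR 126 := by decide +kernel
  let K : Subgroup G :=
    { carrier := {h | ∃ M, 𝐀 h M ∧ P M}
      one_mem' := ⟨_, C.one, fun x y a b e => by rwa [vm_mo p8 a.1, vm_mo p8 b.1]⟩
      mul_mem' := fun ⟨M, a, k⟩ ⟨N, b, l⟩ => ⟨_, C.mul a b, fun x y u v e => by
        rw [vm_mm p8, vm_mm p8]; exact l _ _ (C.hΓ_act ⟨_, a⟩ u) (C.hΓ_act ⟨_, a⟩ v) (k x y u v e)⟩
      inv_mem' := fun ⟨M, a, k⟩ => by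
        obtain ⟨N, -, b⟩ := C.ex_ac (comm_inv (C.acH a))
        refine ⟨N, b, (C.h_rk ⟨_, b⟩).rook.resolve_right fun l => ?_⟩
        have := (l _ _ (C.hΓ_act ⟨_, a⟩ g1) (C.hΓ_act ⟨_, a⟩ g2)).1 (k _ _ g1 g2 e)
        rw [C.vm_inv a b g1.1, C.vm_inv a b g2.1] at this
        exact absurd this (by decide +kernel) }
  refine ⟨K, ⟨⟨_, C.self C.lq.mem, fun x y a b e => by rwa [vm_mo p8 a.1, vm_mo p8 b.1]⟩,
    fun _ ⟨_, a, _⟩ => mem_c1.2 (C.acH a), fun g hg h hh n n' => ?_⟩, fun s a ⟨M, b, k⟩ => ?_⟩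
  · obtain ⟨M, -, a⟩ := C.ex_ac (mem_c1.1 hg)
    obtain ⟨N, -, b⟩ := C.ex_ac (mem_c1.1 hh)
    have k := (C.h_rk ⟨_, a⟩).rook.resolve_left fun l => n ⟨M, a, l⟩
    have l := (C.h_rk ⟨_, b⟩).rook.resolve_left fun l => n' ⟨N, b, l⟩
    exact ⟨_, C.mul a b, fun x y u v e => by
      rw [vm_mm p8, vm_mm p8]; exact (l _ _ (C.hΓ_act ⟨_, a⟩ u) (C.hΓ_act ⟨_, a⟩ v)).2 ((k x y u v).1 e)⟩
  · have := k _ _ g1 g2 e
    rw [C.co.uniq b a g1.1, C.co.uniq b a g2.1] at this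
    exact absurd this (by decide +kernel)

theorem h_lift (a : 𝐀 s hT) : ∃ s, 𝐀 s hT ∧ ∀ x ∈ Q z, vm 8 (π x) hT = π x → x * s = s * x := by
  let W : Subgroup G :=
    { carrier := {x | x ∈ Q z ∧ vm 8 (π x) hT = π x}
      one_mem' := ⟨one_mem _, by rw [C.co.one, vm_zero]⟩
      mul_mem' := fun a b => ⟨mul_mem a.1 b.1, by rw [C.co.mul _ a.1 _ b.1, vm_xor, a.2, b.2]⟩
      inv_mem' := fun a => ⟨inv_mem a.1, by rw [C.co.inv a.1, a.2]⟩ }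
  obtain ⟨q, hq, k⟩ := inner_sub (W := W) C.lq.toEX ⟨C.lq.mem, by rw [C.fr.pz, vm_zero]⟩ (fun _ a => a.1) (C.acH a)
    fun x hx => C.fr.eq_or hx.1 (norm_mem a.1 hx.1) (by rw [a.2 x hx.1, hx.2])
  exact ⟨_, C.fr.ac_mul a hq, fun x h1 h2 => k x ⟨h1, h2⟩⟩

theorem h_inv (a : 𝐀 s hT) : ∃ s, 𝐀 s hT ∧ s * s = 1 ∧ ∃ p ∈ [2, 19], ∀ x ∈ Q z, vm 8 (π x) hT = π x →
    s⁻¹ * x * s = x * z ^ b8 (π x) p := by
  obtain ⟨s, a, k⟩ := C.h_lift a
  have m : s * s ∈ Q z := C.mem_of_ac (h_T.1 ▸ C.mul a a)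
  have e : π (s * s) = 8 := (h_T.2 _ (C.lt m)).2.2.2.2 fun p hp => by
    obtain ⟨x, hx, rfl⟩ := C.co.surj p hp
    have m' := mul_mem (norm_mem a.1 (inv_mem hx)) hx
    have e := C.π_cj a hx _ (inv_mem hx)
    rw [C.co.inv hx] at e
    have c := k _ m' (e ▸ (h_T.2 _ (Nat.xor_lt_two_pow (n := 8) (vm_lt 8 _ _) hp)).1.2
      ⟨(h_T.2 _ hp).2.2.1, (h_T.2 _ hp).2.2.2.1⟩)
    refine zp_inj C.lq.zz C.lq.z_ne (ThR.b8_lt _ _) (ThR.q8_lt _) (mul_left_cancel (a := s * s) ?_)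
    rw [← C.fr.conj m hx, ← e, ← C.fr.sq' _ m']
    generalize hv : s⁻¹ * x⁻¹ * s * x = v at c
    calc _ = s * (s⁻¹ * x⁻¹ * s * x) * s * (s⁻¹ * x⁻¹ * s * x) := by group
      _ = _ := by rw [hv, mul_assoc s, c]; group
  have f : ∀ y ∈ Q z, ∀ x ∈ Q z, vm 8 (π x) hT = π x → (s * y)⁻¹ * x * (s * y) = x * z ^ b8 (π x) (π y) :=
    fun y hy x hx l => by rw [← C.fr.conj hx hy, ← mul_assoc, mul_assoc _ x, k x hx l]; group
  obtain ⟨x, hx, px⟩ := C.co.surj 2 (by decide)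
  obtain ⟨r, hr, pr⟩ := C.co.surj 17 (by decide)
  have m' := mul_mem (norm_mem a.1 hx) hx
  have : s * x * (s * x) ∈ zpowers z := by
    rw [show s * x * (s * x) = s * s * (s⁻¹ * x * s * x) by group, ← C.co.ker _ (mul_mem m m'), C.co.mul _ m _ m', e,
      C.π_cj a hx _ hx, px]
    decide +kernel
  rcases C.lq.mem_z.1 this with l | l
  · exact ⟨_, C.fr.ac_mul a hx, l, 2, by simp, px ▸ f x hx⟩
  refine ⟨_, C.fr.ac_mul a (mul_mem hx hr), ?_, 19, by simp, by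
    have := f _ (mul_mem hx hr); rwa [C.co.mul x hx r hr, px, pr] at this⟩
  rw [← mul_assoc s, SyT.Sy.sq_mul' (comm_mul (k r hr (by rw [pr]; decide +kernel)).symm
    ((C.fr.comm_iff hx hr).2 (by rw [px, pr]; decide +kernel))), l, C.fr.sq' r hr, pr,
    show q8 17 = 1 by decide +kernel, pow_one, C.lq.zz]

theorem noT [IsSimpleGroup G] (a : 𝐀 s hT) : False := by
  obtain ⟨s, a, ss, p, hp, k⟩ := C.h_inv a
  obtain ⟨K, I, sK⟩ := C.h_ix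
  obtain ⟨p1, p2, ⟨c1, l1, c2, l2, f1, f2, f3⟩, p3, p4⟩ := h_p p hp
  have cs : ∀ c < 256, vm 8 c hT = c → b8 c p = 0 → ∃ x ∈ Q z, π x = c ∧ x * s = s * x := fun c hc e e' =>
    let ⟨x, hx, px⟩ := C.co.surj c hc
    ⟨x, hx, px, by have := k x hx (px ▸ e); rwa [px, e', pow_zero, mul_one, mul_assoc, inv_mul_eq_iff_eq_mul] at this⟩
  have fx : ∀ x ∈ Q z, x * s = s * x → vm 8 (π x) hT = π x := fun x hx e => by
    rw [← a.2 x hx, mul_assoc, e, inv_mul_cancel_left]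
  refine I.parity (no_two C.lq) C.lq (C.acH a) (sK s a) (.inl ss) (· * z) fun d ⟨h1, h2, h3, h4, h5⟩ => ?_
  have dz := (h4 z C.lq.mem (C.acH a).symm).symm
  obtain ⟨M, -, b⟩ := C.ex_ac dz
  have cd : ∀ c < 256, vm 8 c hT = c → b8 c p = 0 → vm 8 c M = c := fun c hc e e' => by
    obtain ⟨x, hx, rfl, l⟩ := cs c hc e e'
    rw [← b.2 x hx, mul_assoc, h4 x hx l, inv_mul_cancel_left]
  have e8 := cd 8 (by decide) (by decide +kernel) p1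
  have e98 : vm 8 98 M ^^^ 98 ∈ [0, 8, 98, 106] := by
    have := (h_T.2 _ (vm_lt 8 128 M)).2.1
    rw [← vm_mm p8, C.co.uniq (C.mul b a) (h3 ▸ C.mul a b) (by decide), vm_mm p8, ← vm_xor,
      show vm 8 128 hT ^^^ 128 = 98 ^^^ 8 by decide +kernel, vm_xor, e8] at this
    exact (by decide +kernel : ∀ c < 256, c ^^^ 8 ∈ [0, 8, 98, 106] → c ^^^ 98 ∈ [0, 8, 98, 106]) _ (vm_lt 8 _ _) this
  have zK : z ∈ fam z K d := by
    obtain ⟨x, hx, rfl, u⟩ := cs c1 l1 f1.1 f1.2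
    obtain ⟨y, hy, rfl, v⟩ := cs c2 l2 f2.1 f2.2
    have := I.comm h2 (h4 x hx u) (h4 y hy v)
    rwa [C.fr.comm hx hy, f3, pow_one, mul_assoc y, C.lq.zc hx, ← mul_assoc y, mul_inv_cancel_right, C.lq.zc hy,
      mul_inv_cancel_right] at this
  have dD := C.isConj.1 h2
  rcases C.tr_one b e8 (fun c hc => by
    obtain ⟨n, hn, e, e'⟩ := p3 c hc
    have := cd _ (Nat.xor_lt_two_pow (n := 8) (h_tr c hc).1.1
      ((by decide : ∀ n ∈ [0, 98], n < 2 ^ 8) n hn)) e e'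
    rw [vm_xor] at this
    rw [show vm 8 c M ^^^ c = vm 8 n M ^^^ n by
      rw [← Nat.xor_xor_cancel_right (vm 8 c M) (vm 8 n M), this, Nat.xor_comm c n, Nat.xor_assoc n c,
        Nat.xor_comm c, ← Nat.xor_assoc, Nat.xor_xor_cancel_right, Nat.xor_comm]]
    simp only [List.mem_cons, List.not_mem_nil, or_false] at hn
    rcases hn with rfl | rfl
    exacts [by simp [vm_zero], e98]) with m | b
  · obtain ⟨v, hv, e1, e2, e3⟩ := p4 _ (C.lt m) ((C.D_iff m h1).1 dD) (fx d m h3.symm)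
    obtain ⟨x, hx, rfl, u⟩ := cs v hv e1 e2
    exact absurd (e3.symm.trans ((C.fr.comm_iff hx m).1 (h4 x hx u))) one_ne_zero
  obtain ⟨y, hy, py⟩ := C.co.surj 98 (by decide)
  have m := C.div a b
  have ys : y * s * y⁻¹ = s * z := by
    have := k y hy (by rw [py]; decide +kernel)
    rw [py, p2, pow_one] at this
    rw [show y * s * y⁻¹ = s * (s⁻¹ * y * s) * y⁻¹ by group, this, C.lq.zc hy]; group
  have yd : y * d * y⁻¹ = d * z := by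
    have := (C.fr.comm_iff m hy).2 (py ▸ ((h_T.2 _ (C.lt m)).1.1 (fx _ m (comm_mul (comm_inv rfl) h3.symm))).2)
    rw [show y * d * y⁻¹ = y * s * y⁻¹ * (y * (s⁻¹ * d) * y⁻¹) by group, ys, conj_eq_iff.2 this.symm, mul_assoc,
      ← C.lq.zc m]
    group
  refine ⟨⟨fun e => C.sys.ne1 dD (mul_eq_right.1 e), h2.trans (isConj_iff.2 ⟨y, yd⟩), (comm_mul h3.symm (C.acH a).symm).symm,
    fun u hu l => (comm_mul (h4 u hu l).symm (C.lq.zc hu).symm).symm, fun l => h5 ((fam_fam z K).of yd ?_)⟩,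
    fun e => C.lq.z_ne (mul_eq_left.1 e), by rw [mul_assoc, C.lq.zz, mul_one]⟩
  refine ys ▸ mul_mem l ?_
  simpa only [conj_eq_iff.2 (C.lq.zc hy)] using (fam_fam z K).mv yd zK

end Cs

end CF.W4
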