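import Cfsg.Agent.W4.K2
import Cfsg.Agent.XT.Co3

/-! Width four, small intersections: the first Conway group. -/

set_option autoImplicit false
set_option linter.unusedSectionVars false
set_option maxHeartbeats 400000

namespace CF.W4

open Cfsg Subgroup CF.Loc CF.Even CF.LX CF.Geom CF.XG QuadraticMap

variable {G V : Type*} [Group G] [Finite G] [AddCommGroup V] [Module (ZMod 2) V] {q : QuadraticForm (ZMod 2) V}
  {Q : G → Subgroup G} {D : Set G} {n : ℕ} {a b g x y z : G} {p : G → V} {ρ : G → V →ₗ[ZMod 2] V} {c u v w : V}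

/-- images of adjacent involutions with the smallest intersection -/
def K0 (Q : G → Subgroup G) (D : Set G) (z : G) (p : G → V) (v : V) : Prop :=
  ∃ e, Adj Q D z e ∧ p e = v ∧ ∀ y ∈ Q z, y ∈ Q e → y = 1 ∨ y = z ∨ y = e ∨ y = z * e

section
variable (S : Sys Q D n) (L : LM (Q z) z p q ρ)
include S L

theorem k0_rel (j : Adj Q D z a) (E : ∀ y ∈ Q z, y ∈ Q a → y = 1 ∨ y = z ∨ y = a ∨ y = z * a)
    (k : polar q c (p a) = 0) : ∃ b ∈ Q a, b * z = z * b ∧ Rel q ρ (p a) b c := by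
  obtain ⟨y, hy, rfl⟩ := L.surj c
  obtain ⟨x, hx, c1⟩ := S.exists_x j
  obtain ⟨b, h1, h2, -, h3⟩ := S.k1_to j hx c1 S.fam hy ((L.cm hy j.aQ).2 k) hy
  have m := S.comm_mem hx h2
  have r := tauE1 S L j E h1 h2 hx c1
  have e := L.mul (inv_mem hy) m
  rw [L.inv hy, eq_comm, add_eq_iff] at e
  refine ⟨b, h1, h2, ?_⟩
  have r' := L.rel_self (S.p_sing L j) r
  rw [e]
  rcases E _ (mul_mem (inv_mem hy) m) h3 with l | l | l | l <;> rw [l]
  exacts [by rwa [L.one, zero_add], by rwa [L.pz, zero_add], by rwa [add_comm], by rwa [L.zmul j.aQ, add_comm]]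

theorem K0.sg (k : K0 Q D z p u) (h : polar q c u = 0) : ∃ g, g * z = z * g ∧ ∀ v, ρ g v = sg q u c v := by
  obtain ⟨e, j, rfl, E⟩ := k
  obtain ⟨b, -, bz, r⟩ := k0_rel S L j E h
  exact ⟨b, bz, r.2⟩

theorem K0.mv (k : K0 Q D z p u) (gz : g * z = z * g) : K0 Q D z p (ρ g u) := by
  obtain ⟨e, j, rfl, E⟩ := k
  refine ⟨_, S.adj_cj' j gz, (L.act gz j.aQ).symm, fun y h1 h2 => ?_⟩
  have := E _ (L.cj (comm_inv gz) h1) (S.fam.mv (conj_inv_of rfl) h2)
  rw [show y = g * (g⁻¹ * y * g⁻¹⁻¹) * g⁻¹ by group]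
  rcases this with l | l | l | l <;> rw [l]
  exacts [.inl (by simp), .inr (.inl (conj_eq_iff.2 gz)), .inr (.inr (.inl rfl)),
    .inr (.inr (.inr (by rw [conj_mul_conj, conj_eq_iff.2 gz])))]

theorem K0.step (ha : K0 Q D z p u) (hb : K0 Q D z p v) (qv : q v = 0) (vu : polar q v u = 1) (qw : q w = 0)
    (wu : polar q w u = 1) : K0 Q D z p w := by
  obtain ⟨g, gz, e⟩ := ha.sg S L (c := v + w) (by rw [polar_add_left, vu, wu, z11])
  have : ρ g v = w := by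
    rw [e, sg_one vu, vv', polar_add_right, pol_self, quad_add, qw, qv]
    simp [CharTwo.add_self_eq_zero]
  exact this ▸ hb.mv S L gz

theorem k0_all (h8 : Eight q) (j : Adj Q D z a)
    (irr : ∀ A : Subgroup G, z ∈ A → A ≤ Q z → 𝐂₁(z) ≤ 𝐍(A) → A = zpowers z ∨ A = Q z)
    (E : ∀ y ∈ Q z, y ∈ Q a → y = 1 ∨ y = z ∨ y = a ∨ y = z * a) (w0 : w ≠ 0) (qw : q w = 0) : K0 Q D z p w := by
  have ha : K0 Q D z p (p a) := ⟨a, j, rfl, E⟩
  have qa := S.p_sing L j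
  obtain ⟨g, gz, ne⟩ := opp S L j irr
  have ka : polar q (ρ g (p a)) (p a) = 1 := z2_ne fun l => ne ((L.cm (L.cj gz j.aQ) j.aQ).2 (by rwa [← L.act gz j.aQ]))
  have st := fun x => ha.step S L (w := x) (ha.mv S L gz) ((L.ρ_q gz _).trans qa) ka
  obtain ⟨v, va, vy⟩ := h8.both (S.p_ne L j) w0
  by_cases ya : polar q w (p a) = 1
  · exact st w qw ya
  have xa : polar q (v + q v • p a) (p a) = 1 := by rw [polar_add_left, polar_smul_left, pol_self, va, smul_zero, add_zero]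
  exact (st (v + q v • p a) (by simp [quad_add, q_smul, polar_smul_right, qa, va, CharTwo.add_self_eq_zero]) xa).step S L
    ha qa (pc xa) qw (by rw [polar_add_right, polar_smul_right, z2_ne' ya, pc vy, smul_zero, add_zero])

theorem K0.E (j : Adj Q D z a) (k : K0 Q D z p (p a)) (h1 : y ∈ Q z) (h2 : y ∈ Q a) :
    y = 1 ∨ y = z ∨ y = a ∨ y = z * a := by
  obtain ⟨e, j', l, E⟩ := k
  rcases (L.eq_iff j'.aQ j.aQ).1 l with rfl | rfl
  · exact E y h1 h2
  · have := E y h1 (S.inter' j h1 h2)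
    rw [← mul_assoc, S.zz j.zD, one_mul] at this
    tauto

end

/-- if some intersection is a four-group then the group is the first Conway group -/
theorem pK [IsSimpleGroup G] (S : Sys Q D 4) (j : Adj Q D z a)
    (irr : ∀ A : Subgroup G, z ∈ A → A ≤ Q z → 𝐂₁(z) ≤ 𝐍(A) → A = zpowers z ∨ A = Q z)
    (k0 : ∀ y ∈ Q z, y ∈ Q a → y = 1 ∨ y = z ∨ y = a ∨ y = z * a) : Spor.IsoCo1 G := by
  obtain ⟨p, q, ρ, L⟩ := exists_lm (S.lq j.zD) (r := 8) (S.card j.zD)
  have h8 : Eight q := ⟨by simp, fun _ => L.nd⟩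
  have A := fun w => k0_all S L (w := w) h8 j irr k0
  have full : ∀ u w, u ≠ 0 → q u = 0 → polar q w u = 0 → ∃ g, g * z = z * g ∧ ∀ v, ρ g v = sg q u w v :=
    fun u w h1 h2 h3 => (A u h1 h2).sg S L h3
  have pl : IsPlus q := by
    obtain ⟨x, hx⟩ := h8.one (S.p_ne L j)
    obtain ⟨c, c0, qc, ca, cx, -⟩ := h8.ex_sing (p a) x 0 0
    obtain ⟨b, hb, bz, r⟩ := k0_rel S L j k0 ca
    refine is_plus S h8 (fun d hd => ?_) (fun {d a y} k h1 h2 => ?_) L j (fun d hd x h1 h2 h3 => ?_) full c0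
      (fun l => z01 (cx.symm.trans (l ▸ pc hx))) qc hb bz r
    · obtain ⟨g, e⟩ := S.tr hd j.zD
      exact ⟨_, _, S.lm L hd e⟩
    · obtain ⟨g, e⟩ := S.tr k.zD j.zD
      have k' := e ▸ S.adj_cj k g
      have := (A _ (S.p_ne L k') (S.p_sing L k')).E S L k' (S.fam.mv e h1) (S.fam g _ _ h2)
      rw [← e, ← conj_mul_conj] at this
      simpa using this
    · obtain ⟨g, e⟩ := S.tr hd j.zD
      have m := S.fam.mv e h1
      suffices g * x * g⁻¹ ∈ D by simpa [mul_assoc] using S.cj g⁻¹ this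
      by_cases l : p (g * x * g⁻¹) = 0
      · exact ((L.ker m).1 l).elim (fun l => (h3 (by simpa using l)).elim) fun l => l ▸ j.zD
      obtain ⟨b, k, l, -⟩ := A _ l ((L.sq m).1 (by rw [← conj_mul_conj, h2]; simp))
      rcases (L.eq_iff m k.aQ).1 l.symm with l | l <;> rw [l]
      exacts [k.aD, S.mul_D k]
  obtain ⟨g, e⟩ := S.tr j.zD j.aD
  obtain ⟨φ, -⟩ := CF.XT.Co.main L.lq (S.card j.zD) (card_plus L h8 (no_two L.lq) pl (S.card j.zD) full)
    (e ▸ j.aQ) (e ▸ j.ne)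
  exact ⟨φ.symm⟩

end CF.W4
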