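import Cfsg.Agent.W4.C2
import Cfsg.Agent.XG.V

/-! Width four, small intersections: linear algebra, reflections and the order of the centralizer. -/

set_option autoImplicit false
set_option linter.unusedSectionVars false
set_option maxHeartbeats 400000

namespace CF.W4

open Cfsg Subgroup CF.Loc CF.Even CF.LX CF.Geom CF.XG QuadraticMap

variable {G V : Type*} [Group G] [Finite G] [AddCommGroup V] [Module (ZMod 2) V] {q : QuadraticForm (ZMod 2) V}
  {a b g t x y z : G} {s u v w : V} {p : G → V} {ρ : G → V →ₗ[ZMod 2] V}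

namespace Eight
variable (h : Eight q)
include h

theorem ex_perp (a b c d e f : V) : ∃ v, v ≠ 0 ∧ polar q v a = 0 ∧ polar q v b = 0 ∧ polar q v c = 0 ∧
    polar q v d = 0 ∧ polar q v e = 0 ∧ polar q v f = 0 := by
  haveI := h.fin
  obtain ⟨v, hv, n⟩ := Submodule.exists_mem_ne_zero_of_ne_bot (LinearMap.ker_ne_bot_of_finrank_lt
    (f := LinearMap.pi fun i : Fin 6 => polarBilin q (![a, b, c, d, e, f] i)) (by simp [h.dim]))
  have := fun i => congrFun (LinearMap.mem_ker.1 hv) i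
  exact ⟨v, n, pc (this 0), pc (this 1), pc (this 2), pc (this 3), pc (this 4), pc (this 5)⟩

theorem ex_ns (P : V → Prop) (add : ∀ u v, P u → P v → P (u + v)) (hu : P u) (u0 : u ≠ 0)
    (pr : ∀ v, ∃ w, P w ∧ polar q w u = polar q v u) : ∃ w, P w ∧ q w = 1 := by
  by_contra! k
  obtain ⟨v, hv⟩ := h.one u0
  obtain ⟨w, h1, h2⟩ := pr v
  exact z01 ((pol_of_q (z2_ne' (k w h1)) (z2_ne' (k u hu)) (z2_ne' (k _ (add _ _ h1 hu)))).symm.trans (h2.trans hv))

theorem ex_sing (a b c d : V) : ∃ v, v ≠ 0 ∧ q v = 0 ∧ polar q v a = 0 ∧ polar q v b = 0 ∧ polar q v c = 0 ∧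
    polar q v d = 0 := by
  obtain ⟨u, u0, u1, u2, u3, u4, -⟩ := h.ex_perp a b c d 0 0
  obtain ⟨y, hy⟩ := h.one u0
  obtain ⟨v, v0, v1, v2, v3, v4, v5, v6⟩ := h.ex_perp a b c d u y
  rcases z2 (q u) with l | l
  · exact ⟨u, u0, l, u1, u2, u3, u4⟩
  rcases z2 (q v) with m | m
  · exact ⟨v, v0, m, v1, v2, v3, v4⟩
  refine ⟨v + u, fun e => z01 (v6.symm.trans (by rw [XG.add_eq_zero'.1 e]; exact pc hy)), by rw [quad_add, l, m, v5]; rfl,
    ?_, ?_, ?_, ?_⟩ <;> simp [polar_add_left, *]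

theorem sep2 {t : V} (hu : ∀ i j : ZMod 2, u ≠ i • s + j • t) :
    ∃ x, polar q x s = 0 ∧ polar q x t = 0 ∧ polar q x u = 1 := by
  by_cases k : t = 0 ∨ t = s
  · obtain ⟨x, h1, h2⟩ := h.sep (t := u) (u := s) (by simpa using hu 0 0) (by simpa using hu 1 0)
    exact ⟨x, h1, by rcases k with rfl | rfl <;> simp [h1], h2⟩
  push Not at k
  obtain ⟨x, h1, h2⟩ := h.sep k.1 k.2
  obtain ⟨y, h3, h4⟩ := h.sep (t := u + polar q x u • t) (u := s) (fun l => hu 0 _ (by simpa using add_eq_iff.1 l))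
    fun l => hu 1 _ (by simpa using add_eq_iff.1 l)
  refine ⟨y + polar q y t • x, ?_, ?_, ?_⟩ <;>
    simp only [polar_add_left, polar_add_right, polar_smul_left, polar_smul_right, smul_eq_mul, h1, h2, h3] at h4 ⊢
  · simp
  · simp [CharTwo.add_self_eq_zero]
  · rwa [mul_comm]

theorem pp2 {t : V} (k : ∀ x, polar q x s = 0 → polar q x t = 0 → polar q x u = 0) : ∃ i j : ZMod 2, u = i • s + j • t := by
  by_contra! n
  obtain ⟨x, h1, h2, h3⟩ := h.sep2 n
  exact z01 ((k x h1 h2).symm.trans h3)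

theorem duals (u0 : u ≠ 0) (v0 : v ≠ 0) (uv : v ≠ u) : ∃ x y, polar q x u = 1 ∧ polar q x v = 0 ∧
    polar q y u = 0 ∧ polar q y v = 1 := by
  obtain ⟨x, h1, h2⟩ := h.sep u0 uv.symm
  obtain ⟨y, h3, h4⟩ := h.sep v0 uv
  exact ⟨x, y, h2, h1, h3, h4⟩

theorem isPlus (u0 : u ≠ 0) (v0 : v ≠ 0) (uv : v ≠ u) (hw : ∀ i j : ZMod 2, w ≠ i • u + j • v)
    (hs : ∀ i j : ZMod 2, s ≠ i • u + j • v) (ws : ∀ i j : ZMod 2, w + s ≠ i • u + j • v)
    (qu : q u = 0) (qv : q v = 0) (qw : q w = 0) (qs : q s = 0) (o1 : polar q v u = 0) (o2 : polar q w u = 0)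
    (o3 : polar q w v = 0) (o4 : polar q s u = 0) (o5 : polar q s v = 0) (o6 : polar q w s = 0) : IsPlus q := by
  have li : LinearIndependent (ZMod 2) ![u, v, w, s] := Fintype.linearIndependent_iff.2 fun k l => by
    rw [Fin.sum_univ_four] at l
    simp only [Matrix.cons_val] at l
    rw [add_assoc, XG.add_eq_zero'] at l
    have : k 2 = 0 ∧ k 3 = 0 := by
      rcases z2 (k 2) with a | a <;> rcases z2 (k 3) with b | b <;> rw [a, b] at l
      exacts [⟨a, b⟩, (hs _ _ (by simpa using l.symm)).elim, (hw _ _ (by simpa using l.symm)).elim,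
        (ws _ _ (by simpa using l.symm)).elim]
    rw [this.1, this.2, zero_smul, zero_smul, add_zero] at l
    have : k 0 = 0 ∧ k 1 = 0 := by
      rcases z2 (k 0) with a | a <;> rcases z2 (k 1) with b | b <;> rw [a, b] at l
      exacts [⟨a, b⟩, (v0 (by simpa using l)).elim, (u0 (by simpa using l)).elim,
        (uv (XG.add_eq_zero'.1 (by simpa using l)).symm).elim]
    intro i; fin_cases i <;> simp [*]
  refine ⟨Submodule.span (ZMod 2) (Set.range ![u, v, w, s]), by rw [finrank_span_eq_card li, h.dim]; rfl, fun x hx => ?_⟩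
  obtain ⟨k, rfl⟩ := (Submodule.mem_span_range_iff_exists_fun _).1 hx
  rw [Fin.sum_univ_four]
  simp [quad_add, q_smul, polar_add_left, polar_smul_left, polar_smul_right, qu, qv, qw, qs, pc o1, pc o2, pc o3, pc o4,
    pc o5, o6]

end Eight

variable {Q K : Subgroup G} (L : LM Q z p q ρ)
include L

theorem lift_refl (h8 : Eight q) (hv : q v = 1) (gz : g * z = z * g) (k : ∀ u, ρ g u = u + polar q u v • v) :
    ∃ c ∈ Q, ∃ x ∈ Q, polar q v (p x) = 1 ∧ g * c * x * (g * c * x) = 1 ∧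
      ∀ y ∈ Q, polar q (p y) v = 0 → g * c * y = y * (g * c) := by
  classical
  obtain ⟨r, hr, rfl⟩ := L.surj v
  have f : ∀ y ∈ Q ⊓ 𝐂₁(r), g * y * g⁻¹ = y ∨ g * y * g⁻¹ = z * y := fun y hy =>
    (L.fix_iff gz hy.1).1 (by rw [k, (L.cm hy.1 hr).1 (mem_c1.1 hy.2), zero_smul, add_zero])
  have zn : ∀ y, z * y ≠ y := by simpa using L.lq.z_ne
  obtain ⟨c, hc, hf⟩ := L.exists_fun (W := Q ⊓ 𝐂₁(r)) ⟨L.lq.mem, mem_c1.2 (L.lq.zc hr).symm⟩ inf_le_left
    (fun y => if g * y * g⁻¹ = y then 0 else 1) (if_pos (conj_eq_iff.2 gz)) fun x hx y hy => by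
      rw [conj_mul_conj]
      rcases f x hx with e | e <;> rcases f y hy with e' | e' <;> rw [e, e']
      · simp
      · simp [zn]
      · simp [zn, mul_assoc]
      · rw [mul_assoc z, ← mul_assoc x, L.lq.zc hx.1, mul_assoc z, ← mul_assoc z, L.lq.zz]; simp [zn, z11]
  have A : ∀ y ∈ Q, polar q (p y) (p r) = 0 → g * c * y = y * (g * c) := fun y hy l => by
    have m : y ∈ Q ⊓ 𝐂₁(r) := ⟨hy, mem_c1.2 ((L.cm hy hr).2 l)⟩
    have := hf y m
    rw [← conj_eq_iff, show g * c * y * (g * c)⁻¹ = g * (c * y * c⁻¹) * g⁻¹ by group]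
    rcases f y m with e | e
    · rw [if_pos e] at this
      rw [conj_eq_iff.2 ((L.cm hc hy).2 (pc this)), e]
    · rw [if_neg (e ▸ zn y)] at this
      rw [(L.lq.conj_cases hc hy).resolve_left fun l => z01 (((L.cm hc hy).1 (conj_eq_iff.1 l)).symm.trans (pc this)),
        conj_mul_conj, e, conj_eq_iff.2 gz, ← mul_assoc, L.lq.zz, one_mul]
  have sz := comm_mul gz (L.lq.zc hc)
  have k' : ∀ u, ρ (g * c) u = u + polar q u (p r) • p r := fun u => by rw [L.ρ_mul gz (L.lq.zc hc), L.ρ_Q hc, k]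
  generalize hs : g * c = s at A sz k'
  have r0 : p r ≠ 0 := fun l => z01 (by rw [← hv, l, map_zero])
  obtain ⟨w, hw⟩ := L.exists_one r0
  obtain ⟨x, hx, rfl⟩ := L.surj w
  have m : s * s ∈ Q := L.mem_of (comm_mul sz sz) fun u => by
    rw [L.ρ_mul sz sz, k', k', polar_add_left, polar_smul_left, pol_self, smul_zero, add_zero, vv'']
  have m' := L.cj sz hx
  have e1 : p (s * x * s⁻¹) = p x + p r := by rw [← L.act sz hx, k', hw, one_smul]
  have e2 : p (s * s) = p r := (L.perp_perp r0 (L.ind fun y hy l => (L.cm hy m).1 (comm_mul (A y hy l) (A y hy l)).symm)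
    ).resolve_left fun l => by
      have a1 := mul_mem m' (inv_mem hx)
      have a2 : p (s * x * s⁻¹ * x⁻¹) = p r := by rw [L.mul m' (inv_mem hx), L.inv hx, e1, add_comm, vv']
      have a3 := conj_eq_iff.2 (A _ a1 (by rw [a2, pol_self]))
      have a4 := conj_eq_iff.2 ((L.cm m hx).2 (by rw [l, polar_zero_left]))
      refine zn x ?_
      calc z * x = s * (s * x * s⁻¹ * x⁻¹) * s⁻¹ * (s * x * s⁻¹ * x⁻¹) * x := by rw [a3, L.sqz a1 (a2 ▸ hv)]
        _ = s * s * x * (s * s)⁻¹ := by group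
        _ = x := a4
  have e3 : s * x * (s * x) = 1 ∨ s * x * (s * x) = z := by
    rw [show s * x * (s * x) = s * x * s⁻¹ * (s * s) * x by group, ← L.ker (mul_mem (mul_mem m' m) hx),
      L.mul (mul_mem m' m) hx, L.mul m' m, e1, e2, vv'', vv]
  subst hs
  rcases e3 with e3 | e3
  · exact ⟨c, hc, x, hx, pc hw, e3, A⟩
  obtain ⟨u, u0, u1, u2, -⟩ := h8.ex_perp (p r) (p x) 0 0 0 0
  obtain ⟨w, ⟨w1, w2⟩, w3⟩ := h8.ex_ns (fun v => polar q v (p r) = 0 ∧ polar q v (p x) = 0)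
    (fun u v k l => by simp [polar_add_left, k, l]) ⟨u1, u2⟩ u0 fun v =>
    ⟨_, proj (pc hw) v, by simp [polar_add_left, polar_smul_left, pc u1, pc u2]⟩
  obtain ⟨y, hy, rfl⟩ := L.surj w
  refine ⟨c, hc, x * y, mul_mem hx hy, by rw [L.mul hx hy, polar_add_right, pc hw, pc w1, add_zero], ?_, A⟩
  have := comm_mul (A y hy w1) ((L.cm hx hy).2 (pc w2))
  rw [← mul_assoc (g * c) x y, mul_assoc _ y, ← mul_assoc y, ← this, ← mul_assoc, ← mul_assoc, e3, mul_assoc,
    L.sqz hy w3, L.lq.zz]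

theorem no_refl (h8 : Eight q) (n2 : ∀ H : Subgroup G, H.index ≠ 2) (I : IX z K) (QK : Q ≤ K) (hv : q v = 1)
    (gz : g * z = z * g) (gK : g ∉ K) (k : ∀ u, ρ g u = u + polar q u v • v) : False := by
  obtain ⟨c, hc, x, hx, vx, tt, A⟩ := lift_refl L h8 hv gz k
  have sz := comm_mul gz (L.lq.zc hc)
  have tz := comm_mul sz (L.lq.zc hx)
  have k' : ∀ u, ρ (g * c * x) u = u + polar q u v • v := fun u => by
    rw [L.ρ_mul sz (L.lq.zc hx), L.ρ_mul gz (L.lq.zc hc), L.ρ_Q hx, L.ρ_Q hc, k]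
  have tK : g * c * x ∉ K := by rwa [K.mul_mem_cancel_right (QK hx), K.mul_mem_cancel_right (QK hc)]
  have B : ∀ y ∈ Q, polar q (p y) v = 0 → (y * (g * c * x) = g * c * x * y ↔ polar q (p y) (p x) = 0) :=
    fun y hy l => by rw [← L.cm hy hx, ← mul_assoc, ← A y hy l, mul_assoc, mul_assoc (g * c), mul_right_inj]
  generalize g * c * x = t at tt tz k' tK B
  have v0 : v ≠ 0 := fun l => z01 (by rw [← hv, l, map_zero])
  have dec : ∀ u, u = u + polar q u (p x) • v + polar q u v • p x + polar q u (p x) • v + polar q u v • p x :=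
    fun u => by rw [add_right_comm _ _ (_ • v), vv'', vv'']
  have E : ∀ u ∈ Q, u * t = t * u → (∀ y ∈ Q, y * t = t * y → y * u = u * y) → u = 1 ∨ u = z := fun u hu h1 h2 => by
    have a1 : polar q (p u) v = 0 := z2_ne' fun l => v0 (by simpa [k', l] using L.fix_of tz hu h1.symm)
    refine (L.ker hu).1 (L.nd fun w => ?_)
    obtain ⟨y, hy, e⟩ := L.surj (w + polar q w (p x) • v + polar q w v • p x)
    obtain ⟨b1, b2⟩ := proj vx w
    rw [← e] at b1 b2
    rw [dec w, ← e]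
    simp [polar_add_left, polar_smul_left, pc a1, pc ((B u hu a1).1 h1), (L.cm hy hu).1 (h2 y hy ((B y hy b1).2 b2))]
  refine I.parity n2 L.lq tz tK (.inl tt) id fun d ⟨h1, h2, h3, h4, h5⟩ => (h5 ?_).elim
  have dz := (h4 z L.lq.mem tz.symm).symm
  have a1 : ρ d v = v := by
    have : ρ d (ρ t (p x)) = ρ t (ρ d (p x)) := by rw [← L.ρ_mul dz tz, ← h3, L.ρ_mul tz dz]
    rw [k', k', pc vx, one_smul, map_add, add_right_inj] at this
    rcases z2 (polar q (ρ d (p x)) v) with l | l <;> rw [l] at this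
    exacts [(v0 (L.ρ_inj dz (by simpa using this))).elim, by simpa using this]
  have a2 : ∀ w, ρ d w = w + polar q w v • (ρ d (p x) + p x) := fun w => by
    obtain ⟨y, hy, e⟩ := L.surj (w + polar q w (p x) • v + polar q w v • p x)
    obtain ⟨b1, b2⟩ := proj vx w
    rw [← e] at b1 b2
    have := L.fix_of dz hy (h4 y hy ((B y hy b1).2 b2)).symm
    rw [e, map_add, map_add, map_smul, map_smul, a1, add_eq_iff, add_eq_iff] at this
    rw [this]
    generalize polar q w v = i, polar q w (p x) = j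
    apply v2; match_scalars <;> revert i j <;> decide
  rcases L.perp_perp v0 (t := ρ d (p x) + p x) fun w l => by
    rw [polar_add_right, ← L.ρ_pol dz w (p x), a2 w, l, zero_smul, add_zero, CharTwo.add_self_eq_zero] with l | l
  · obtain ⟨g, rfl⟩ := isConj_iff.1 h2
    exact ((E _ (L.mem_of dz fun w => by rw [a2, l, smul_zero, add_zero]) h3.symm h4).elim
      (by simpa using L.lq.z_ne) h1).elim
  have iz := comm_inv tz
  rcases E (d * t⁻¹) (L.mem_of (comm_mul dz iz) fun w => by rw [L.ρ_mul dz iz, a2, l, ← k', L.ρ_inv' tz])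
    (comm_mul h3.symm (comm_inv rfl)) fun y hy l => (comm_mul (h4 y hy l).symm (comm_inv l.symm)).symm with e | e
  · exact mul_inv_eq_one.1 e ▸ I.self h2
  obtain ⟨u, u0, u1, u2, -⟩ := h8.ex_perp v (p x) 0 0 0 0
  obtain ⟨w, hw⟩ := L.exists_one u0
  obtain ⟨y, hy, e'⟩ := L.surj (w + polar q w (p x) • v + polar q w v • p x)
  obtain ⟨b1, b2⟩ := proj vx w
  have b3 : polar q (w + polar q w (p x) • v + polar q w v • p x) u = 1 := by
    simp [polar_add_left, polar_smul_left, pc u1, pc u2, hw]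
  rw [← e'] at b1 b2 b3
  obtain ⟨r, hr, rfl⟩ := L.surj u
  have := I.comm h2 (h4 y hy ((B y hy b1).2 b2)) (h4 r hr ((B r hr u1).2 u2))
  rw [(L.lq.conj_cases hy hr).resolve_left fun l => z01 (((L.cm hy hr).1 (conj_eq_iff.1 l)).symm.trans b3),
    mul_inv_cancel_right, ← e] at this
  exact inv_mem_iff.1 ((mul_mem_cancel_left (I.self h2)).1 (by rwa [e] at this ⊢))

theorem card_plus (h8 : Eight q) (n2 : ∀ H : Subgroup G, H.index ≠ 2)
    (pl : IsPlus q) (c : Nat.card Q = 2 ^ 9)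
    (full : ∀ u w, u ≠ 0 → q u = 0 → polar q w u = 0 → ∃ g, g * z = z * g ∧ ∀ v, ρ g v = sg q u w v) :
    Nat.card 𝐂₁(z) = 89181388800 := by
  haveI := Module.finite_of_finrank_pos (h8.dim ▸ (by decide : 0 < 8) : 0 < Module.finrank (ZMod 2) V)
  haveI := Module.nontrivial_of_finrank_pos (h8.dim ▸ (by decide : 0 < 8) : 0 < Module.finrank (ZMod 2) V)
  let f : 𝐂₁(z) →* OG q := MonoidHom.mk' (fun g => ⟨LinearEquiv.ofLinear (ρ g) (ρ g.1⁻¹)
    (LinearMap.ext (L.ρ_inv' (mem_c1.1 g.2))) (LinearMap.ext (L.ρ_inv (mem_c1.1 g.2))), mem_OG.2 (L.ρ_q (mem_c1.1 g.2))⟩)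
    fun g h => Subtype.ext (LinearEquiv.ext (L.ρ_mul (mem_c1.1 g.2) (mem_c1.1 h.2)))
  have hf : ∀ g v, (f g).1 v = ρ g v := fun _ _ => rfl
  have k : ∀ g, f g = 1 ↔ g.1 ∈ Q := fun g => ⟨fun e => L.mem_of (mem_c1.1 g.2) fun v => by rw [← hf, e]; rfl,
    fun e => Subtype.ext (LinearEquiv.ext (L.ρ_Q e))⟩
  have top := reflSub_eq_top L.nondeg (.inr (by rw [h8.dim]; decide))
  have i2 := index_commutator_even L.nondeg rfl top
  have le : commutator (OG q) ≤ f.range := by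
    rw [commutator_eq_eichlerSub_of_finite L.nondeg (.inr (by rw [h8.dim]; decide)) (by rw [h8.dim]; decide), closure_le]
    rintro _ ⟨u, w, hu, hw, rfl⟩
    obtain ⟨g, gz, e⟩ : ∃ g, g * z = z * g ∧ ∀ v, ρ g v = sg q u w v := by
      by_cases u0 : u = 0
      exacts [⟨1, by simp, fun v => by simp [L.ρ_Q (one_mem _), sg, u0]⟩, full u w u0 hu (pc hw)]
    exact ⟨⟨g, mem_c1.2 gz⟩, Subtype.ext (LinearEquiv.ext fun v => (e v).trans (sg_eichler u w v))⟩
  have ge : f.range ≤ commutator (OG q) := fun x hx => by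
    by_contra n
    obtain ⟨v, hv, nv⟩ : ∃ v, q v ≠ 0 ∧ oRefl q v ∉ commutator (OG q) := by
      by_contra! l
      exact n ((closure_le _).2 (by rintro _ ⟨v, hv, rfl⟩; exact l v hv) (top.ge (mem_top x)))
    obtain ⟨g, e⟩ := (mul_mem_cancel_left hx).1 (le ((mul_mem_iff_of_index_two i2).2 (iff_of_false n nv)))
    have m : ∀ g : 𝐂₁(z), g.1 ∈ ((commutator (OG q)).comap f).map (𝐂₁(z)).subtype ↔ f g ∈ commutator (OG q) :=
      fun g => mem_map_iff_mem Subtype.val_injective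
    have QK : Q ≤ ((commutator (OG q)).comap f).map (𝐂₁(z)).subtype := fun y hy =>
      (m ⟨y, L.lq.le_c1 hy⟩).2 ((k ⟨y, L.lq.le_c1 hy⟩).2 hy ▸ one_mem _)
    refine no_refl L h8 n2 ⟨QK L.lq.mem, map_subtype_le _, fun a ha b hb h1 h2 => (m (⟨a, ha⟩ * ⟨b, hb⟩)).2 ?_⟩ QK
      (z2_ne hv) (mem_c1.1 g.2) (mt (m g).1 (e ▸ nv)) fun u => ?_
    · rw [map_mul]
      exact (mul_mem_iff_of_index_two i2).2 (iff_of_false (mt (m ⟨a, ha⟩).2 h1) (mt (m ⟨b, hb⟩).2 h2))
    · rw [← hf, e, oRefl_apply, z2_ne hv, inv_one, one_mul, polar_comm, sub_eq_add_neg, ZModModule.neg_eq_self]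
  have a := (commutator (OG q)).card_mul_index
  rw [i2, card_OG_plus L.nondeg pl (m := 3) h8.dim, Nat.card_zmod] at a
  rw [card_eq_mul f, le_antisymm ge le, show f.ker = Q.subgroupOf _ from Subgroup.ext k,
    Nat.card_congr (subgroupOfEquivOfLe L.lq.le_c1).toEquiv, c]
  simp [Finset.prod_range_succ] at a
  omega

end CF.W4
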