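import Cfsg.Agent.W4.K1

/-! Width four, small intersections: the quadratic space is hyperbolic. -/

set_option autoImplicit false
set_option linter.unusedSectionVars false
set_option maxHeartbeats 400000

namespace CF.W4

open Cfsg Subgroup CF.Loc CF.Even CF.LX CF.Geom CF.XG QuadraticMap

variable {G V : Type*} [Group G] [Finite G] [AddCommGroup V] [Module (ZMod 2) V] {q : QuadraticForm (ZMod 2) V}
  {Q : G → Subgroup G} {D : Set G} {n : ℕ} {a b g m t x y z : G} {p : G → V} {ρ : G → V →ₗ[ZMod 2] V} {c u v w : V}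

theorem tauE1 (S : Sys Q D n) (L : LM (Q z) z p q ρ) (j : Adj Q D z a)
    (E : ∀ y ∈ Q z, y ∈ Q a → y = 1 ∨ y = z ∨ y = a ∨ y = z * a) (hb : b ∈ Q a) (bz : b * z = z * b)
    (hx : x ∈ Q z) (c : x * a * x⁻¹ = z * a) : Rel q ρ (p a) b (p (x * b * x⁻¹ * b⁻¹)) := by
  refine S.rel_of L j hx c bz (S.zc j.aD hb) fun t ht ta => ?_
  obtain ⟨m1, m2⟩ := S.commE L j hb bz ht ta
  have := L.comm ht bz
  rcases E _ m1 m2 with e | e | e | e <;> rw [e] at this
  exacts [.inl (XG.add_eq_zero'.1 (this.symm.trans L.one)), .inl (XG.add_eq_zero'.1 (this.symm.trans L.pz)),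
    .inr (by rw [add_eq_iff.1 this.symm, add_comm]),
    .inr (by rw [add_eq_iff.1 (this.symm.trans (L.zmul j.aQ)), add_comm])]

section
variable (S : Sys Q D n) (h8 : Eight q) (hL : ∀ d ∈ D, ∃ p ρ, LM (Q d) d p q ρ)
  (E : ∀ {d a y}, Adj Q D d a → y ∈ Q d → y ∈ Q a → y = 1 ∨ y = d ∨ y = a ∨ y = d * a)
include S

include E in
theorem tauE (L : LM (Q z) z p q ρ) (j : Adj Q D z a) (hb : b ∈ Q a) (bz : b * z = z * b)
    (hx : x ∈ Q z) (c : x * a * x⁻¹ = z * a) : Rel q ρ (p a) b (p (x * b * x⁻¹ * b⁻¹)) :=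
  tauE1 S L j (fun _ => E j) hb bz hx c

include E in
theorem r_comm (L : LM (Q z) z p q ρ) (j : Adj Q D z a) (hx : x ∈ Q z) (c : x * a * x⁻¹ = z * a) (hb : b ∈ Q a)
    (bz : b * z = z * b) (ht : t ∈ Q z) (ta : t * a = a * t) :
    t * b * t⁻¹ * b⁻¹ = 1 ∨ t * b * t⁻¹ * b⁻¹ = z ↔ t * (x * b * x⁻¹ * b⁻¹) = x * b * x⁻¹ * b⁻¹ * t := by
  rw [← L.ker (S.comm_mem ht bz), L.comm ht bz, (tauE S E L j hb bz hx c).2, sg_perp ((L.cm ht j.aQ).1 ta),
    add_comm, vv', L.cm ht (S.comm_mem hx bz), smul_eq_zero_iff_left (S.p_ne L j)]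

include h8 hL E

theorem r1 (L : LM (Q z) z p q ρ) (j : Adj Q D z a) (hb : b ∈ Q a) (bz : b * z = z * b) (r : Rel q ρ (p a) b c)
    (ht : t ∈ Q z) (t1 : polar q (p t) (p a) = 0) (t2 : polar q (p t) c = 0) : t * b = b * t := by
  obtain ⟨x, hx, c1⟩ := S.exists_x j
  obtain ⟨y, hy, c2⟩ := S.exists_x (S.symm j)
  obtain ⟨p', ρ', L'⟩ := hL a j.aD
  have ta := (L.cm ht j.aQ).2 t1
  have m := S.comm_mem hx bz
  have m' := S.comm_mem hy ta
  have h1 : t * (x * b * x⁻¹ * b⁻¹) = x * b * x⁻¹ * b⁻¹ * t := (L.cm ht m).2 (by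
    rcases L.rel_uniq (S.p_ne L j) r (tauE S E L j hb bz hx c1) with e | e <;> rw [e]
    exacts [t2, by rw [polar_add_right, t1, t2, add_zero]])
  have h2 := (S.r_sym E (S.symm j) hy c2 m ((L.cm m j.aQ).2 (tauE S E L j hb bz hx c1).1) hb
    (by rw [inv_mul_cancel_right, S.az j]; exact S.fam.mv c1 hb) ht ta).2 h1.symm
  have h3 := (S.r_sym E j hx c1 m' ((L'.cm m' (S.symm j).aQ).2 (tauE S E L' (S.symm j) ht ta hy c2).1) ht
    (by rw [inv_mul_cancel_right, ← S.az j]; exact S.fam.mv c2 ht) hb bz).1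
    (by rw [inv_mul_cancel_right] at h2 ⊢; exact h2.symm)
  have h4 := (r_comm S E L' (S.symm j) hy c2 ht ta hb bz).2 h3.symm
  rcases (r_comm S E L j hx c1 hb bz ht ta).2 h1 with e | e
  · exact conj_eq_iff.1 (mul_inv_eq_one.1 e)
  · rw [show b * t * b⁻¹ * t⁻¹ = (t * b * t⁻¹ * b⁻¹)⁻¹ by group, e, S.zi j.zD] at h4
    exact (h4.elim (S.ne1 j.zD) j.ne.symm).elim

theorem r_sq (L : LM (Q z) z p q ρ) (j : Adj Q D z a) (hb : b ∈ Q a) (bz : b * z = z * b) (r : Rel q ρ (p a) b c)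
    (qc : q c = 0) : b * b = 1 := by
  obtain ⟨x, hx, c1⟩ := S.exists_x j
  have m := S.comm_mem hx bz
  have r' := tauE S E L j hb bz hx c1
  have h1 := W4.r1 S h8 hL E L j hb bz r' m r'.1 (pol_self _)
  have h2 := (L.sq m).2 (by
    rcases L.rel_uniq (S.p_ne L j) r r' with e | e <;> rw [e]
    exacts [qc, by rw [quad_add, qc, r.1, S.p_sing L j]; rfl])
  refine ((S.lq j.aD).sq b hb).resolve_right fun e => S.ne1 j.zD ?_
  rwa [← e, conj_mul_conj, ← inv_mul_cancel_right (x * b * x⁻¹) b, mul_assoc _ b, ← mul_assoc b, ← h1, ← mul_assoc,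
    ← mul_assoc, h2, one_mul, right_eq_mul] at c1

theorem r_gamma (L : LM (Q z) z p q ρ) (j : Adj Q D z a) (hb : b ∈ Q a) (bz : b * z = z * b) (r : Rel q ρ (p a) b c)
    (qc : q c = 0) (c0 : c ≠ 0) (ca : c ≠ p a)
    (full : ∀ u w, u ≠ 0 → q u = 0 → polar q w u = 0 → ∃ g, g * z = z * g ∧ ∀ v, ρ g v = sg q u w v) :
    ∃ g, g * z = z * g ∧ g * b = b * g ∧ ρ g (p a) = p a + c ∧ ρ g c = p a ∧
      ∀ v, polar q v (p a) = 0 → polar q v c = 0 → ∃ i j : ZMod 2, ρ g v = v + i • p a + j • c := by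
  have qa := S.p_sing L j
  obtain ⟨a', c', a1, a2, c1, c2⟩ := h8.duals (S.p_ne L j) c0 ca
  obtain ⟨g, gz, hg⟩ := full _ c' (S.p_ne L j) qa c1
  obtain ⟨k, kz, hk⟩ := full _ a' c0 qc a2
  have hz := comm_mul gz kz
  have A : ∀ v, polar q v (p a) = 0 → polar q v c = 0 →
      ρ (g * k) v = v + (polar q v c' + polar q v a') • p a + polar q v a' • c := fun v h1 h2 => by
    rw [L.ρ_mul gz kz, hk, sg_perp h2, map_add, map_smul, hg, hg, sg_perp h1, sg_perp r.1, pc c2]; module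
  generalize g * k = h at hz A
  have e1 : ρ h (p a) = c := by
    rw [A _ (pol_self _) (pc r.1), pc c1, pc a1, zero_add, one_smul, one_smul, vv, zero_add]
  have e2 : ρ h c = c + p a := by rw [A _ r.1 (pol_self _), pc c2, pc a2, add_zero, one_smul, zero_smul, add_zero]
  have h1 := comm_mul (comm_mul hz bz) (comm_inv hz)
  have r1 := L.rel_cj hz bz r
  rw [e1, e2] at r1
  have y1 : h * b * h⁻¹ * b⁻¹ ∈ Q z := L.mem_of (comm_mul h1 (comm_inv bz)) fun v => by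
    rw [L.ρ_mul h1 (comm_inv bz), r1.2, add_comm c, sg_add_self qc (pc r.1), (L.rel_inv qa bz r).2, sg_sing qa,
      add_right_comm, ← sg_sing qc, sg_invol qa r.1]
  obtain ⟨i, l, e⟩ : ∃ i l : ZMod 2, p (h * b * h⁻¹ * b⁻¹) = i • p a + l • c := by
    by_contra! n
    obtain ⟨v, v1, v2, v3⟩ := h8.sep2 n
    obtain ⟨t, ht, rfl⟩ := L.surj v
    have t1 := L.cj (comm_inv hz) ht
    have := W4.r1 S h8 hL E L j hb bz r t1
      (by rw [← L.act (comm_inv hz) ht, ← L.ρ_pol hz, L.ρ_inv' hz, e1, v2])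
      (by rw [← L.act (comm_inv hz) ht, ← L.ρ_pol hz, L.ρ_inv' hz, e2, polar_add_right, v1, v2, add_zero])
    rw [← comm_conj_iff h, show h * (h⁻¹ * t * h⁻¹⁻¹) * h⁻¹ = t by group] at this
    exact z01 (((L.cm ht y1).1 (comm_mul this.symm (comm_inv (W4.r1 S h8 hL E L j hb bz r ht v1 v2).symm)).symm).symm.trans v3)
  obtain ⟨x, hx, e'⟩ := L.surj (l • a' + i • c')
  have xz := S.zc j.zD hx
  have B : x⁻¹ * h * b * (x⁻¹ * h)⁻¹ = b ∨ x⁻¹ * h * b * (x⁻¹ * h)⁻¹ = z * b := by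
    have := (L.eq_iff y1 (S.comm_mem hx bz)).1 (by
      rw [e, L.comm hx bz, r.2, e', sg_sing qc, add_comm _ (l • a' + _), add_assoc (l • a' + _), vv']
      simp [polar_add_left, polar_smul_left, a1, a2, c1, c2, add_comm])
    rw [show x⁻¹ * h * b * (x⁻¹ * h)⁻¹ = x⁻¹ * (h * b * h⁻¹ * b⁻¹ * b) * x by group]
    refine this.imp (fun e => by rw [e]; group) fun e => ?_
    rw [e, show x⁻¹ * (z * (x * b * x⁻¹ * b⁻¹) * b) * x = x⁻¹ * (z * x) * b by group, ← xz, inv_mul_cancel_left]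
  have kz := comm_mul (comm_inv xz) hz
  have F : ∀ v, ρ (x⁻¹ * h * (x⁻¹ * h)) v = ρ h (ρ h v) := fun v => by
    rw [L.ρ_mul kz kz, L.ρ_mul (comm_inv xz) hz, L.ρ_mul (comm_inv xz) hz, L.ρ_Q (inv_mem hx), L.ρ_Q (inv_mem hx)]
  generalize x⁻¹ * h = k at B kz F
  refine ⟨k * k, comm_mul kz kz, conj_eq_iff.1 ?_, by rw [F, e1, e2, add_comm],
    by rw [F, e2, map_add, e1, e2, add_comm, vv'], fun v v1 v2 => ?_⟩
  · rw [show k * k * b * (k * k)⁻¹ = k * (k * b * k⁻¹) * k⁻¹ by group]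
    rcases B with B | B <;> rw [B]
    exacts [B, by rw [conj_mul_conj, B, conj_eq_iff.2 kz, ← mul_assoc, S.zz j.zD, one_mul]]
  · rw [F, A v v1 v2, map_add, map_add, map_smul, map_smul, e1, e2, A v v1 v2]
    exact ⟨polar q v c' + polar q v a' + polar q v a', polar q v a' + (polar q v c' + polar q v a') + polar q v a',
      by module⟩

theorem is_plus (L : LM (Q z) z p q ρ) (j : Adj Q D z a)
    (all : ∀ d ∈ D, ∀ x ∈ Q d, x * x = 1 → x ≠ 1 → x ∈ D)
    (full : ∀ u w, u ≠ 0 → q u = 0 → polar q w u = 0 → ∃ g, g * z = z * g ∧ ∀ v, ρ g v = sg q u w v)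
    (c0 : c ≠ 0) (ca : c ≠ p a) (qc : q c = 0) (hb : b ∈ Q a) (bz : b * z = z * b) (r : Rel q ρ (p a) b c) :
    IsPlus q := by
  obtain ⟨x, -, x1, x2, -⟩ := h8.duals (S.p_ne L j) c0 ca
  have bx : ρ b x + x = c := by rw [r.2, sg_sing qc, x1, x2, one_smul, zero_smul, add_zero, add_comm, vv']
  have bQ : b ∉ Q z := fun l => c0 (by rw [← bx, L.ρ_Q l, vv])
  have j' : Adj Q D b a := S.symm ⟨j.aD, all a j.aD b hb (r_sq S h8 hL E L j hb bz r qc) fun l => bQ (l ▸ one_mem _),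
    hb, fun l => bQ (l ▸ j.aQ)⟩
  obtain ⟨p', ρ', L'⟩ := hL b j'.zD
  obtain ⟨g, gz, gb, g1, g2, g3⟩ := r_gamma S h8 hL E L j hb bz r qc c0 ca full
  have j1 := S.adj_cj' j gz
  have j2 := S.adj_cj' j' gb
  have e1 : p (g * a * g⁻¹) = p a + c := by rw [← L.act gz j.aQ, g1]
  have n1 : p' (g * a * g⁻¹) ≠ p' a := fun l => ((L'.eq_iff j2.aQ j'.aQ).1 l).elim
    (fun l => c0 (by simpa [l] using e1)) fun l => bQ ((mul_mem_cancel_right j.aQ).1 (l ▸ j1.aQ))
  have zQ : z ∉ Q b := fun l => bQ (S.symm ⟨j'.zD, j.zD, l, fun m => bQ (m ▸ S.mem j.zD)⟩).aQ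
  have qa := S.p_sing L' j'
  have qa' := S.p_sing L' j2
  have r' : Rel q ρ' (p' a) z (p' (g * a * g⁻¹)) := by
    obtain ⟨y, hy, k⟩ := S.exists_x j'
    have r1 := tauE S E L' j' (S.symm j).aQ bz.symm hy k
    obtain ⟨y', hy', k'⟩ := S.exists_x j2
    have r2 := tauE S E L' j2 (S.symm j1).aQ bz.symm hy' k'
    obtain ⟨v, v1, v2⟩ := h8.sep (fun l => zQ (L'.rel_triv qa' bz.symm r2 (.inl l)))
      fun l => zQ (L'.rel_triv qa' bz.symm r2 (.inr l))
    have := r1.2 v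
    rw [r2.2, sg_perp v1, v2, one_smul, sg, add_assoc, add_right_inj] at this
    generalize polar q v _ + _ = i at this
    rw [this]
    rcases z2 (polar q v (p' a)) with l | l <;> rcases z2 i with rfl | rfl <;> rw [l] at this ⊢
    exacts [(S.p_ne L' j2 (by simpa using this)).elim, (n1 (by simpa using this)).elim, by simpa using r1,
      by simpa using L'.rel_self qa r1]
  have e2 : g * (g * a * g⁻¹) * g⁻¹ = a * (g * a * g⁻¹) := by
    refine ((L.eq_iff (L.cj gz j1.aQ) (mul_mem j.aQ j1.aQ)).1 (by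
      rw [← L.act gz j1.aQ, L.mul j.aQ j1.aQ, e1, map_add, g1, g2, vv', add_comm (p a), vv''])).resolve_right fun l => zQ ?_
    exact (mul_mem_cancel_right (mul_mem j'.aQ j2.aQ)).1 (l ▸ L'.cj gb j2.aQ)
  have f1 := L'.act gb j'.aQ
  have f2 := L'.act gb j2.aQ
  rw [e2, L'.mul j'.aQ j2.aQ] at f2
  have aY : ∀ y ∈ Q b, polar q (p' y) (p' a) = 0 → polar q (p' y) (p' (g * a * g⁻¹)) = 0 →
      y * z = z * y ∧ ρ y (p a) = p a ∧ ρ y c = c := fun y hy w2 w3 => by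
    have yz := W4.r1 S h8 hL E L' j' (S.symm j).aQ bz.symm r' hy w2 w3
    have y1 := L.fix_of yz j.aQ ((L'.cm hy j'.aQ).2 w2)
    exact ⟨yz, y1, by simpa [e1, y1] using L.fix_of yz j1.aQ ((L'.cm hy j2.aQ).2 w3)⟩
  have a0 := S.p_ne L' j'
  have a0' := S.p_ne L' j2
  generalize p' a = a', p' (g * a * g⁻¹) = a1 at *
  have gY : ∀ w, polar q w a' = 0 → polar q w a1 = 0 → polar q (ρ' g w) a' = 0 ∧ polar q (ρ' g w) a1 = 0 :=
    fun w h1 h2 => by
      have k1 : polar q (ρ' g w) a1 = 0 := by rw [← f1, L'.ρ_pol gb, h1]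
      have k2 := (L'.ρ_pol gb w a1).trans h2
      rw [f2, polar_add_right, k1, add_zero] at k2
      exact ⟨k2, k1⟩
  have hY : ∀ y ∈ Q b, y * z = z * y → ∀ v, polar q v (p a) = 0 → polar q v c = 0 →
      ∃ i j : ZMod 2, ρ y v + v = i • p a + j • c := fun y hy yz v v1 v2 => h8.pp2 fun u u1 u2 => by
    obtain ⟨t, ht, rfl⟩ := L.surj v
    obtain ⟨s, hs, rfl⟩ := L.surj u
    have m := S.comm_mem ht yz
    have m' : t * y * t⁻¹ * y⁻¹ ∈ Q b := mul_mem (S.fam.nor (W4.r1 S h8 hL E L j hb bz r ht v1 v2) hy) (inv_mem hy)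
    rw [← L.comm ht yz, ← L.cm hs m, ← conj_eq_iff]
    refine (S.cases j.zD hs m).resolve_right fun l => zQ ?_
    exact (mul_mem_cancel_right m').1 (l ▸ S.fam.nor (W4.r1 S h8 hL E L j hb bz r hs u1 u2) m')
  have cY : ∀ y ∈ Q b, polar q (p' y) a' = 0 → polar q (p' y) a1 = 0 → ∀ v, polar q v (p a) = 0 → polar q v c = 0 →
      ρ (g * y * g⁻¹) v + v = ρ g (ρ y v + v) := fun y hy w2 w3 v v1 v2 => by
    obtain ⟨k1, k2⟩ := gY _ w2 w3
    rw [L'.act gb hy] at k1 k2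
    obtain ⟨-, y1, y2⟩ := aY _ (L'.cj gb hy) k1 k2
    obtain ⟨i, l, e⟩ := g3 v v1 v2
    rw [map_add, ← L.ρ_cj gz (aY y hy w2 w3).1, e, map_add, map_add, map_smul, map_smul, y1, y2]
    generalize i • p a = u, l • c = w
    apply XG.v2; match_scalars <;> decide
  have key : ∀ w, polar q w a' = 0 → polar q w a1 = 0 → ∃ i j : ZMod 2, w + ρ' g w + ρ' g (ρ' g w) = i • a' + j • a1 :=
    fun w w2 w3 => h8.pp2 fun u u2 u3 => by
      obtain ⟨y, hy, rfl⟩ := L'.surj w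
      obtain ⟨s, hs, rfl⟩ := L'.surj u
      obtain ⟨k1, k2⟩ := gY _ w2 w3
      obtain ⟨k3, k4⟩ := gY _ k1 k2
      have hy1 := L'.cj gb hy
      have hy2 := L'.cj gb hy1
      rw [L'.act gb hy] at k1 k2 k3 k4 ⊢
      rw [L'.act gb hy1] at k3 k4 ⊢
      obtain ⟨z0, b0, d0⟩ := aY _ hy w2 w3
      obtain ⟨z1, b1, d1⟩ := aY _ hy1 k1 k2
      obtain ⟨z2, b2, d2⟩ := aY _ hy2 k3 k4
      obtain ⟨sz, s1, s2⟩ := aY _ hs u2 u3
      have hm := mul_mem (mul_mem hy hy1) hy2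
      have mz := comm_mul (comm_mul z0 z1) z2
      have M : ∀ v, polar q v (p a) = 0 → polar q v c = 0 →
          ρ (y * (g * y * g⁻¹) * (g * (g * y * g⁻¹) * g⁻¹)) v = v := fun v v1 v2 => by
        obtain ⟨i, l, e⟩ := hY y hy z0 v v1 v2
        have c1 := cY y hy w2 w3 v v1 v2
        have c2 := cY _ hy1 k1 k2 v v1 v2
        rw [c1] at c2
        rw [e, add_eq_iff] at c1 c2
        rw [add_eq_iff] at e
        simp only [map_add, map_smul, g1, g2] at c1 c2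
        rw [L.ρ_mul (comm_mul z0 z1) z2, L.ρ_mul z0 z1, c2]
        simp only [map_add, map_smul, b1, d1, c1, b0, d0, e]
        clear c1 c2 e
        apply XG.v2; match_scalars <;> revert i l <;> decide
      rw [← L'.mul hy hy1, ← L'.mul (mul_mem hy hy1) hy2, ← L'.cm hs hm, ← conj_eq_iff]
      generalize y * (g * y * g⁻¹) * (g * (g * y * g⁻¹) * g⁻¹) = m at hm mz M
      refine (S.cases j'.zD hs hm).resolve_right fun l => bQ ?_
      rw [← mul_inv_eq_iff_eq_mul] at l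
      have c1 := comm_mul (comm_mul sz mz) (comm_inv sz)
      refine l ▸ L.mem_of (comm_mul c1 (comm_inv mz)) fun v => ?_
      rw [L.ρ_mul c1 (comm_inv mz), ← L.ρ_inv' mz v, L.ρ_inv mz]
      generalize ρ m⁻¹ v = v
      rw [← L.ρ_inv' sz v, L.ρ_cj sz mz]
      generalize ρ s⁻¹ v = v
      obtain ⟨i, l, e⟩ := h8.pp2 (s := p a) (t := c) (u := ρ m v + v) fun u u1 u2 => by
        rw [polar_add_right, ← L.ρ_pol mz u v, M u u1 u2, CharTwo.add_self_eq_zero]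
      have := M (ρ s v + v) (by rw [polar_add_left, ← L.ρ_pol sz v, s1, CharTwo.add_self_eq_zero])
        (by rw [polar_add_left, ← L.ρ_pol sz v, s2, CharTwo.add_self_eq_zero])
      rw [map_add, add_eq_iff] at this
      rw [add_eq_iff] at e
      rw [this, e, map_add, map_add, map_smul, map_smul, s1, s2]
      generalize i • p a = u, l • c = w
      apply XG.v2; match_scalars <;> decide
  obtain ⟨x1, x2, h1, h2, h3, h4⟩ := h8.duals a0 a0' n1
  obtain ⟨w, w0, qw, w1, w2, w3, w4⟩ := h8.ex_sing a' a1 x1 x2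
  have nw : ∀ i j : ZMod 2, w ≠ i • a' + j • a1 := fun i j e => w0 (by
    rw [e] at w3 w4
    simp only [polar_add_left, polar_smul_left, pc h1, pc h2, pc h3, pc h4, smul_eq_mul, mul_one, mul_zero, add_zero,
      zero_add] at w3 w4
    simp [e, w3, w4])
  have ng : ∀ w, (∀ i j : ZMod 2, w ≠ i • a' + j • a1) → ∀ i j : ZMod 2, ρ' g w ≠ i • a' + j • a1 := fun w k i j e =>
    k (i + j) i (L'.ρ_inj gb (by
      rw [e, map_add, map_smul, map_smul, f1, f2]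
      clear e
      apply XG.v2; match_scalars <;> revert i j <;> decide))
  obtain ⟨k1, k2⟩ := gY w w1 w2
  obtain ⟨k3, k4⟩ := gY _ k1 k2
  obtain ⟨i, l, e⟩ := key w w1 w2
  rw [add_eq_iff] at e
  have qg := (L'.ρ_q gb w).trans qw
  refine h8.isPlus a0 a0' n1 nw (ng w nw) (fun i' l' e' => ng _ (ng w nw) (i + i') (l + l') ?_) qa qa' qw qg r'.1 w1 w2 k1 k2
    (pol_of_q qw qg ?_)
  · rw [e', eq_comm, add_comm, add_eq_iff] at e
    rw [e]; module
  · simp [e, quad_add, q_smul, polar_add_left, polar_smul_left, polar_smul_right, qa, qa', pc r'.1, pc k3, pc k4,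
      L'.ρ_q gb, qw]

end

end CF.W4
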