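import Cfsg.Agent.XG.S

/-! Transfer excludes the isometries which interchange two complementary totally singular subspaces. -/

set_option autoImplicit false
set_option linter.unusedSectionVars false
set_option maxHeartbeats 400000

namespace CF.W4

open Cfsg Subgroup CF.Loc CF.Even CF.LX CF.Geom CF.XG QuadraticMap

variable {G V : Type*} [Group G] [Finite G] [AddCommGroup V] [Module (ZMod 2) V] {q : QuadraticForm (ZMod 2) V}
  {a b d g h t u x y z : G} {v w : V} {p : G → V} {ρ : G → V →ₗ[ZMod 2] V} {W W' : Set V}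

/-- a pair of complementary totally singular subspaces -/
structure Du (q : QuadraticForm (ZMod 2) V) (W W' : Set V) : Prop where
  add : ∀ {u v}, u ∈ W → v ∈ W → u + v ∈ W
  add' : ∀ {u v}, u ∈ W' → v ∈ W' → u + v ∈ W'
  sing : ∀ {u}, u ∈ W → q u = 0
  sing' : ∀ {u}, u ∈ W' → q u = 0
  sum : ∀ v, ∃ w ∈ W, ∃ w' ∈ W', v = w + w'
  inter : ∀ {u}, u ∈ W → u ∈ W' → u = 0
  big : ∀ w ∈ W, ∀ w' ∈ W', ∃ u ∈ W, u ≠ 0 ∧ u ≠ w ∧ polar q u w' = 0
  both : ∀ u ∈ W', ∀ v ∈ W', u ≠ 0 → v ≠ 0 → ∃ w ∈ W, polar q w u = 1 ∧ polar q w v = 1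

/-- the configuration of the linear group extended by a polarity -/
structure T4 (q : QuadraticForm (ZMod 2) V) (Γ : Set V) (N : Set (V → V)) (W W' : Set V) : Prop extends Du q W W' where
  sub : ∀ {y}, y ∈ Γ → y ∈ W ∨ y ∈ W'
  act : ∀ {g}, g ∈ N → (∀ w ∈ W, g w ∈ W) ∧ (∀ w ∈ W', g w ∈ W') ∨ (∀ w ∈ W, g w ∈ W') ∧ ∀ w ∈ W', g w ∈ W
  theta : ∃ θ ∈ N, (∀ w ∈ W, θ w ∈ W' ∧ polar q w (θ w) = 0) ∧ ∀ v, θ (θ v) = v
  tv : ∀ w ∈ W, ∀ w' ∈ W', polar q w w' = 0 → sg q w w' ∈ N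

namespace Du
variable (D : Du q W W')
include D

theorem zero : 0 ∈ W ∧ 0 ∈ W' := let ⟨w, a, w', b, _⟩ := D.sum 0; ⟨vv w ▸ D.add a a, vv w' ▸ D.add' b b⟩

theorem WW (hu : v ∈ W) (hv : w ∈ W) : polar q v w = 0 := pol_of_q (D.sing hu) (D.sing hv) (D.sing (D.add hu hv))

theorem ne0 : ∃ u ∈ W, u ≠ 0 := let ⟨u, a, b, _⟩ := D.big 0 D.zero.1 0 D.zero.2; ⟨u, a, b⟩

variable {Q K : Subgroup G} (L : LM Q z p q ρ) (tz : t * z = z * t) (sw : ∀ w ∈ W, ρ t w ∈ W') (sw' : ∀ w ∈ W', ρ t w ∈ W)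
include L tz sw sw'

theorem fixθ (k : ρ t v = v) : ∃ w ∈ W, v = w + ρ t w := by
  obtain ⟨w, h1, w', h2, rfl⟩ := D.sum v
  have : w + ρ t w' = w' + ρ t w := by rw [add_eq_iff, add_assoc, ← map_add, k, add_comm w, vv']
  have := D.inter (this ▸ D.add h1 (sw' w' h2)) (D.add' h2 (sw w h1))
  exact ⟨w, h1, by rw [XG.add_eq_zero'.1 this]⟩

theorem adjθ (tt : ∀ v, ρ t (ρ t v) = v) : ∃ u ∈ Q, t * u * (t * u) = 1 ∨ t * u * (t * u) = z := by
  have m : t * t ∈ Q := L.mem_of (comm_mul tz tz) fun v => by rw [L.ρ_mul tz tz, tt]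
  obtain ⟨w, -, k⟩ := D.fixθ L tz sw sw' (L.fix_of tz m (mul_assoc t t t).symm)
  obtain ⟨u, hu, rfl⟩ := L.surj w
  have e : t * u * (t * u) = t * u * t⁻¹ * (t * t) * u := by group
  have m' := L.cj tz hu
  refine ⟨u, hu, e ▸ (L.ker (mul_mem (mul_mem m' m) hu)).1 ?_⟩
  rw [L.mul (mul_mem m' m) hu, L.mul m' m, k, ← L.act tz hu, add_comm (p u), vv', vv]

omit sw' L tz in
theorem yq (hw : w ∈ W) : q (w + ρ t w) = polar q w (ρ t w) := by
  rw [quad_add, D.sing hw, D.sing' (sw w hw), zero_add, zero_add]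

variable (tt : t * t = 1 ∨ t * t = z)
include tt

omit D sw sw' in
theorem sy (u v : V) : polar q u (ρ t v) = polar q v (ρ t u) := by rw [← L.ρ_pol tz, L.θθ tz tt, polar_comm]

omit D sw sw' in
theorem βadd (u v : V) : polar q (u + v) (ρ t (u + v)) = polar q u (ρ t u) + polar q v (ρ t v) := by
  simp only [map_add, polar_add_left, polar_add_right, sy L tz tt u v]
  generalize polar q u (ρ t u) = i, polar q v (ρ t u) = j, polar q v (ρ t v) = k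
  revert i j k; decide

omit sw sw' in
theorem yinv (hx : x ∈ Q) (hw : p x ∈ W) : t * (x * (t * x * t⁻¹)) * t⁻¹ = (x * (t * x * t⁻¹))⁻¹ ∧
    x * t * x⁻¹ = x * (t * x * t⁻¹) * t := by
  have xi : x⁻¹ = x := inv_eq_of_mul_eq_one_left ((L.sq hx).2 (D.sing hw))
  have : t * t * x * (t * t)⁻¹ = x := by
    rcases tt with k | k <;> rw [k]
    exacts [by simp, conj_eq_iff.2 (L.lq.zc hx).symm]
  refine ⟨?_, by rw [xi]; group⟩
  rw [show t * (x * (t * x * t⁻¹)) * t⁻¹ = t * x * t⁻¹ * (t * t * x * (t * t)⁻¹) by group, this, mul_inv_rev,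
    conj_inv, xi]

omit sw' in
theorem yc (hx : x ∈ Q) (hw : p x ∈ W) (l : polar q (p x) (ρ t (p x)) = 0) :
    x * (t * x * t⁻¹) * t = t * (x * (t * x * t⁻¹)) := by
  obtain ⟨h3, h4⟩ := L.yp tz hx
  rw [eq_comm, ← conj_eq_iff, (D.yinv L tz tt hx hw).1, inv_eq_iff_mul_eq_one, L.sq h3, h4, D.yq sw hw, l]

theorem tsB (hb : ∃ w ∈ W, polar q w (ρ t w) = 1) (hu : u ∈ Q) (ut : u * t = t * u) :
    u * u = 1 ∧ ∃ x ∈ Q, x * u = u * x ∧ x * t * x⁻¹ = u * t := by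
  obtain ⟨w, hw, k⟩ := D.fixθ L tz sw sw' (L.fix_of tz hu ut.symm)
  obtain ⟨x, hx, rfl⟩ := L.surj w
  obtain ⟨h1, h2⟩ := D.yinv L tz tt hx hw
  obtain ⟨h3, h4⟩ := L.yp tz hx
  have c := (L.eq_iff hu h3).1 (k.trans h4.symm)
  have uu : u * u = 1 := by
    rw [← eq_inv_iff_mul_eq_one, ← conj_eq_iff.2 ut.symm, conj_inv, conj_eq_iff.2 (comm_inv ut).symm]
    rcases c with rfl | rfl
    · exact h1
    · rw [conj_mul_conj, h1, conj_eq_iff.2 tz, mul_inv_rev z, L.lq.zi, L.lq.zc (inv_mem h3)]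
  have xu : polar q (p x) (p u) = 0 := by
    rw [k, polar_add_right, pol_self, zero_add, ← D.yq sw hw, ← k, (L.sq hu).1 uu]
  refine ⟨uu, ?_⟩
  rcases c with c | c
  · exact ⟨x, hx, (L.cm hx hu).2 xu, c ▸ h2⟩
  obtain ⟨w, hw', k'⟩ := hb
  obtain ⟨y, hy, rfl⟩ := L.surj w
  obtain ⟨k1, -⟩ := D.yinv L tz tt hy hw'
  obtain ⟨k3, k4⟩ := L.yp tz hy
  have yy := L.sqz k3 (by rw [k4, D.yq sw hw', k'])
  have yu : polar q (p (y * (t * y * t⁻¹))) (p u) = 0 := by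
    rw [k4, k, polar_add_left, polar_add_right, polar_add_right, D.WW hw' hw, L.ρ_pol tz, D.WW hw' hw,
      ← L.ρ_pol tz (ρ t (p y)), L.θθ tz tt, zero_add, add_zero, CharTwo.add_self_eq_zero]
  generalize y * (t * y * t⁻¹) = r at k1 k3 yy yu
  refine ⟨x * r, mul_mem hx k3, comm_mul ((L.cm hx hu).2 xu) ((L.cm k3 hu).2 yu), ?_⟩
  rw [show x * r * t * (x * r)⁻¹ = x * (r * (t * r * t⁻¹)⁻¹) * x⁻¹ * (x * t * x⁻¹) by group, k1, inv_inv, yy, h2, c,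
    conj_eq_iff.2 (L.lq.zc hx), mul_assoc z]

theorem tsA (gz : g * z = z * g) (gW : ∀ w ∈ W, ρ g w ∈ W) (gW' : ∀ w ∈ W', ρ g w ∈ W') (gt : t * g = g * t)
    (k : ∀ u ∈ Q, u * t = t * u → u * g = g * u) :
    g ∈ Q ∨ (∃ w ∈ W, polar q w (ρ t w) = 1) ∧ ∀ w ∈ W, polar q w (ρ (t * g) w) = 0 := by
  have c : ∀ v, ρ t (ρ g v) = ρ g (ρ t v) := fun v => by rw [← L.ρ_mul tz gz, gt, L.ρ_mul gz tz]
  have A : ∀ w ∈ W, polar q w (ρ t w) = 0 → ρ g w = w := fun w hw l => by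
    obtain ⟨x, hx, rfl⟩ := L.surj w
    obtain ⟨h3, h4⟩ := L.yp tz hx
    have := L.fix_of gz h3 (k _ h3 (D.yc L tz sw tt hx hw l)).symm
    rw [h4, map_add] at this
    have e : ρ g (p x) + p x = ρ t (p x) + ρ g (ρ t (p x)) := by
      rw [add_eq_iff, add_right_comm, add_comm (ρ t _), ← this, vv'']
    exact XG.add_eq_zero'.1 (D.inter (D.add (gW _ hw) hw) (e ▸ D.add' (sw _ hw) (gW' _ (sw _ hw))))
  by_cases B : ∀ w ∈ W, ρ g w = w
  · refine .inl (L.mem_of gz fun v => ?_)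
    obtain ⟨w, h1, w', h2, rfl⟩ := D.sum v
    rw [map_add, B w h1, ← L.θθ tz tt w', ← c, B _ (sw' w' h2)]
  push Not at B
  obtain ⟨w, hw, n⟩ := B
  have w1 := z2_ne (mt (A w hw) n)
  have A' : ∀ v ∈ W, polar q v (ρ t v) = 0 → polar q v (ρ t (ρ g w)) = polar q v (ρ t w) := fun v hv l => by
    rw [c, ← L.ρ_pol gz v (ρ t w), A v hv l]
  have dc : ∀ v ∈ W, polar q v (ρ t v) = 1 → polar q (v + w) (ρ t (v + w)) = 0 := fun v _ l => by
    rw [βadd L tz tt, l, w1, z11]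
  have e : polar q w (ρ t (ρ g w)) = 0 := z2_ne' fun l => n (XG.add_eq_zero'.1 (L.ρ_inj tz ((L.nd fun v => by
    obtain ⟨v, h1, v', h2, rfl⟩ := D.sum v
    have m := sw _ (D.add (gW w hw) hw)
    rw [polar_add_left, pol_of_q (D.sing' h2) (D.sing' m) (D.sing' (D.add' h2 m)), add_zero, map_add, polar_add_right]
    rcases z2 (polar q v (ρ t v)) with o | o
    · rw [A' v h1 o, CharTwo.add_self_eq_zero]
    · have := A' _ (D.add h1 hw) (dc v h1 o)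
      rw [polar_add_left, polar_add_left, l, w1, add_left_inj] at this
      rw [this, CharTwo.add_self_eq_zero]).trans (map_zero _).symm)))
  refine .inr ⟨⟨w, hw, w1⟩, fun v hv => ?_⟩
  rw [L.ρ_mul tz gz]
  rcases z2 (polar q v (ρ t v)) with o | o
  · rw [A v hv o, o]
  · have h1 := A _ (D.add hv hw) (dc v hv o)
    have h2 := A' _ (D.add hv hw) (dc v hv o)
    rw [map_add, add_eq_iff] at h1
    rw [polar_add_left, polar_add_left, e, w1, add_zero] at h2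
    rw [h1, map_add, map_add, polar_add_right, polar_add_right, o, h2]
    generalize polar q v (ρ t w) = i
    revert i; decide

theorem tsN (I : IX z K) (zt : IsConj z t) : ∃ n ∈ Q, n * t = t * n ∧ n ≠ 1 ∧ n ∈ fam z K t := by
  obtain ⟨w, hw, w0, l⟩ : ∃ w ∈ W, w ≠ 0 ∧ polar q w (ρ t w) = 0 := by
    obtain ⟨u, h1, u0⟩ := D.ne0
    obtain ⟨v, h2, v0, n, -⟩ := D.big u h1 0 D.zero.2
    by_contra! k
    exact k _ (D.add h2 h1) (mt XG.add_eq_zero'.1 n) (by rw [βadd L tz tt, z2_ne (k u h1 u0), z2_ne (k v h2 v0), z11])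
  obtain ⟨x, hx, rfl⟩ := L.surj w
  obtain ⟨h3, h4⟩ := L.yp tz hx
  have c := D.yc L tz sw tt hx hw l
  have n : p (x * (t * x * t⁻¹)) ≠ 0 := fun m => w0 (D.inter hw (XG.add_eq_zero'.1 (h4.symm.trans m) ▸ sw _ hw))
  generalize x * (t * x * t⁻¹) = r at h3 c n
  by_cases k : z ∈ fam z K t
  · exact ⟨z, L.lq.mem, tz.symm, L.lq.z_ne, k⟩
  by_cases k' : r ∈ fam z K t
  · exact ⟨r, h3, c, fun m => n (m ▸ L.one), k'⟩
  exact ⟨_, mul_mem L.lq.mem h3, comm_mul tz.symm c, fun m => n (by rw [← L.zmul h3, m, L.one]),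
    I.i2' zt tz.symm c k k'⟩

omit tt in
theorem lift (tt : t * t = 1) (hz : h * z = z * h) (c : ∀ v, ρ h (ρ t v) = ρ t (ρ h v)) :
    ∃ g, g * z = z * g ∧ g * t = t * g ∧ ∀ v, ρ g v = ρ h (ρ h v) := by
  have ti := inv_eq_of_mul_eq_one_left tt
  have cz := comm_mul (comm_mul hz tz) (comm_inv hz)
  have m : h * t * h⁻¹ * t ∈ Q := L.mem_of (comm_mul cz tz) fun v => by
    rw [L.ρ_mul cz tz, ← L.ρ_inv' hz (ρ t v), L.ρ_cj hz tz, c, L.ρ_inv' hz, L.θθ tz (.inl tt)]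
  have f : ρ t (p (h * t * h⁻¹ * t)) = p (h * t * h⁻¹ * t) := by
    rw [L.act tz m, ← L.inv m, mul_inv_rev, conj_inv, ti, mul_assoc, mul_assoc _ t t, tt, mul_one]
  obtain ⟨w, hw, k⟩ := D.fixθ L tz sw sw' f
  obtain ⟨x, hx, rfl⟩ := L.surj w
  have xz := comm_inv (L.lq.zc hx)
  have e : x⁻¹ * h * t * (x⁻¹ * h)⁻¹ = t ∨ x⁻¹ * h * t * (x⁻¹ * h)⁻¹ = z * t := by
    rw [show x⁻¹ * h * t * (x⁻¹ * h)⁻¹ = x⁻¹ * (h * t * h⁻¹ * t * t⁻¹) * x by group, ti]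
    refine ((L.eq_iff m (L.yp tz hx).1).1 (k.trans (L.yp tz hx).2.symm)).imp (fun l => ?_) fun l => ?_ <;>
      rw [l]
    · rw [← (D.yinv L tz (.inl tt) hx hw).2]; group
    · rw [mul_assoc z, ← (D.yinv L tz (.inl tt) hx hw).2, ← mul_assoc, xz]; group
  have gz := comm_mul xz hz
  refine ⟨_, comm_mul gz gz, conj_eq_iff.1 ?_, fun v => by
    rw [L.ρ_mul gz gz, L.ρ_mul xz hz, L.ρ_mul xz hz, L.ρ_Q (inv_mem hx), L.ρ_Q (inv_mem hx)]⟩
  generalize x⁻¹ * h = g at e gz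
  rw [show g * g * t * (g * g)⁻¹ = g * (g * t * g⁻¹) * g⁻¹ by group]
  rcases e with e | e <;> rw [e]
  exacts [e, by rw [conj_mul_conj, e, conj_eq_iff.2 gz, ← mul_assoc, L.lq.zz, one_mul]]

omit tt in
/-- the centraliser of an alternating involution lies in the commutator subgroup -/
theorem altK (I : IX z K) (zt : IsConj z t) (tt : t * t = 1) (al : ∀ w ∈ W, polar q w (ρ t w) = 0)
    (tv : ∀ w ∈ W, ∀ w' ∈ W', polar q w w' = 0 → sg q w w' ∈ vN z ρ) (hu : u ∈ Q) (ut : u * t = t * u) :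
    u ∈ fam z K t := by
  have T : t * t = 1 ∨ t * t = z := .inl tt
  have yz : ∀ x ∈ Q, z * x * (t * (z * x) * t⁻¹) = x * (t * x * t⁻¹) := fun x hx => by
    rw [conj_mul_conj, conj_eq_iff.2 tz, mul_assoc, ← mul_assoc x, L.lq.zc hx, mul_assoc z, ← mul_assoc z, L.lq.zz, one_mul]
  have ym : ∀ x ∈ Q, ∀ y ∈ Q, x * y * (t * (x * y) * t⁻¹) = x * (y * (t * x * t⁻¹) * y⁻¹) * (y * (t * y * t⁻¹)) :=
    fun x _ y _ => by group
  have s1 : ∀ w ∈ W, ∀ v ∈ W, sg q w (ρ t w) v = v + polar q v (ρ t w) • w := fun w hw v hv => sg_perp (D.WW hv hw)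
  have sc : ∀ w ∈ W, ∀ v, sg q w (ρ t w) (ρ t v) = ρ t (sg q w (ρ t w) v) := fun w hw v => by
    rw [sg_conj (L.ρ_q tz), L.θθ tz T]
    simp only [sg, D.sing hw, D.sing' (sw w hw), zero_mul, add_zero]
    abel
  have A : ∀ x ∈ Q, ∀ y ∈ Q, p x ∈ W → p y ∈ W → polar q (p x) (ρ t (p y)) = 1 →
      (x * (t * x * t⁻¹) ∈ fam z K t ↔ y * (t * y * t⁻¹) ∈ fam z K t) := fun x hx y hy mx my l => by
    have m := D.add mx my
    obtain ⟨a, az, ea⟩ := tv _ mx _ (sw _ mx) (al _ mx)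
    obtain ⟨b, bz, eb⟩ := tv _ m _ (sw _ m) (al _ m)
    obtain ⟨g, gz, gt, e⟩ := D.lift L tz sw sw' tt (comm_mul az bz) fun v => by
      rw [L.ρ_mul az bz, L.ρ_mul az bz, ea, eb, sc _ m, sc _ mx]
    have l' := (sy L tz T _ _).trans l
    have e1 : ρ (a * b) (p x) = p x + p y := by
      rw [L.ρ_mul az bz, ea, eb, s1 _ m _ mx, map_add, polar_add_right, al _ mx, l, zero_add, one_smul, vv', s1 _ mx _ my,
        l', one_smul, add_comm]
    have e2 : ρ (a * b) (p x + p y) = p y := by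
      rw [L.ρ_mul az bz, ea, eb, s1 _ m _ m, al _ m, zero_smul, add_zero, s1 _ mx _ m, polar_add_left, al _ mx, l', zero_add,
        one_smul, add_comm, vv']
    have e3 := (L.eq_iff (L.cj gz hx) hy).1 (by rw [← L.act gz hx, e, e1, e2])
    have e4 : g * (x * (t * x * t⁻¹)) * g⁻¹ = y * (t * y * t⁻¹) := by
      rw [conj_mul_conj, show g * (t * x * t⁻¹) * g⁻¹ = t * (g * x * g⁻¹) * t⁻¹ by
        rw [← mul_assoc, ← mul_assoc, gt, mul_assoc _ t⁻¹, ← mul_inv_rev, gt]; group]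
      rcases e3 with e3 | e3 <;> rw [e3]
      exact yz y hy
    rw [← e4, ← (fam_fam z K).iff (g := g), conj_eq_iff.2 gt]
  have B : ∀ x ∈ Q, p x ∈ W → x * (t * x * t⁻¹) ∈ fam z K t := fun x hx mx => by
    by_cases x0 : p x = 0
    · rcases (L.ker hx).1 x0 with rfl | rfl
      exacts [by simp, by rw [conj_eq_iff.2 tz, L.lq.zz]; exact one_mem _]
    obtain ⟨v, mv, v0, n, l⟩ := D.big _ mx _ (sw _ mx)
    obtain ⟨y, hy, rfl⟩ := L.surj v
    have hr := mul_mem hx (inv_mem hy)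
    have pr : p (x * y⁻¹) = p x + p y := by rw [L.mul hx (inv_mem hy), L.inv hy]
    have mr : p (x * y⁻¹) ∈ W := pr ▸ D.add mx mv
    have ne : ∀ {w}, w ≠ 0 → ρ t w ≠ 0 := fun k o => k (L.ρ_inj tz (o.trans (map_zero _).symm))
    obtain ⟨w, mw, l1, l2⟩ := D.both _ (sw _ mr) _ (sw _ mv) (ne (pr ▸ mt XG.add_eq_zero'.1 n.symm)) (ne v0)
    obtain ⟨s, hs, rfl⟩ := L.surj w
    have i := (A s hs _ hr mw mr l1).symm.trans (A s hs y hy mw mv l2)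
    have := ym _ hr y hy
    rw [conj_eq_iff.2 ((L.cm hy (L.cj tz hr)).2 (by
      rw [← L.act tz hr, pr, map_add, polar_add_right, l, al _ mv, add_zero])), inv_mul_cancel_right] at this
    rw [this]
    by_cases k : y * (t * y * t⁻¹) ∈ fam z K t
    · exact mul_mem (i.2 k) k
    · exact I.i2' zt (D.yc L tz sw T hr mr (al _ mr)) (D.yc L tz sw T hy mv (al _ mv)) (mt i.1 k) k
  have C : z ∈ fam z K t := by
    obtain ⟨v, mv, v0⟩ := D.ne0
    have n : ρ t v ≠ 0 := fun o => v0 (L.ρ_inj tz (o.trans (map_zero _).symm))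
    obtain ⟨w, mw, l, -⟩ := D.both _ (sw _ mv) _ (sw _ mv) n n
    obtain ⟨x, hx, rfl⟩ := L.surj v
    obtain ⟨y, hy, rfl⟩ := L.surj w
    have := B _ (mul_mem hx hy) (L.mul hx hy ▸ D.add mv mw)
    rw [ym x hx y hy, (L.lq.conj_cases hy (L.cj tz hx)).resolve_left fun o => z01 (((L.cm hy (L.cj tz hx)).1
      (conj_eq_iff.1 o)).symm.trans (L.act tz hx ▸ l)), mul_mem_cancel_right (B y hy mw), ← mul_assoc x, L.lq.zc hx,
      mul_assoc, mul_mem_cancel_right (B x hx mv)] at this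
    exact this
  obtain ⟨w, hw, k⟩ := D.fixθ L tz sw sw' (L.fix_of tz hu ut.symm)
  obtain ⟨x, hx, rfl⟩ := L.surj w
  rcases (L.eq_iff hu (L.yp tz hx).1).1 (k.trans (L.yp tz hx).2.symm) with rfl | rfl
  exacts [B x hx hw, mul_mem C (B x hx hw)]

end Du

variable {Q : G → Subgroup G} {D : Set G} {n : ℕ}

theorem no_t4 (S : Sys Q D n) (L : LM (Q z) z p q ρ) (hz : z ∈ D) (n2 : ∀ H : Subgroup G, H.index ≠ 2)
    (T : T4 q (vΓ Q D z p) (vN z ρ) W W') : False := by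
  have Du := T.toDu
  have act := fun g (hg : g * z = z * g) => T.act ⟨g, hg, rfl⟩
  obtain ⟨e, eW, e0⟩ := Du.ne0
  have no : ∀ g, g * z = z * g ∧ (∀ w ∈ W, ρ g w ∈ W) → ¬ ∀ w ∈ W, ρ g w ∈ W' := fun g h1 h2 =>
    e0 (L.ρ_inj h1.1 ((Du.inter (h1.2 _ eW) (h2 _ eW)).trans (map_zero _).symm))
  let K : Subgroup G := ⟨⟨⟨{g | g * z = z * g ∧ ∀ w ∈ W, ρ g w ∈ W}, fun ha hb => ⟨comm_mul ha.1 hb.1, fun w hw => by
    rw [L.ρ_mul ha.1 hb.1]; exact ha.2 _ (hb.2 w hw)⟩⟩, by simp, fun w hw => by rwa [L.ρ_Q (one_mem _)]⟩,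
    fun {g} hg => ⟨comm_inv hg.1, ((act _ (comm_inv hg.1)).resolve_right fun k =>
      e0 (Du.inter eW (L.ρ_inv hg.1 e ▸ k.1 _ (hg.2 _ eW)))).1⟩⟩
  have out : ∀ g, g * z = z * g → g ∉ K → (∀ w ∈ W, ρ g w ∈ W') ∧ ∀ w ∈ W', ρ g w ∈ W := fun g hg k =>
    (act g hg).resolve_left fun l => k ⟨hg, l.1⟩
  have QK : Q z ≤ K := fun u hu => ⟨S.zc hz hu, fun w hw => by rwa [L.ρ_Q hu]⟩
  have I : IX z K := ⟨QK (S.mem hz), fun g hg => mem_c1.2 hg.1, fun a ha b hb h1 h2 =>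
    ⟨comm_mul (mem_c1.1 ha) (mem_c1.1 hb), fun w hw => by
      rw [L.ρ_mul (mem_c1.1 ha) (mem_c1.1 hb)]
      exact (out a (mem_c1.1 ha) h1).2 _ ((out b (mem_c1.1 hb) h2).1 w hw)⟩⟩
  obtain ⟨t, tz, tK, tt, al⟩ : ∃ t, t * z = z * t ∧ t ∉ K ∧
      (t * t = 1 ∨ t * t = z ∧ ∀ s, s * z = z * s → s * s = 1 → s ∈ K) ∧ ((∀ w ∈ W, polar q w (ρ t w) = 0) ∨
        t * t = 1 ∧ ∀ s, s * z = z * s → s * s = 1 → s ∉ K → ¬ ∀ w ∈ W, polar q w (ρ s w) = 0) := by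
    by_cases c : ∀ s, s * z = z * s → s * s = 1 → s ∈ K
    · obtain ⟨_, ⟨g, gz, rfl⟩, h1, h2⟩ := T.theta
      have gK : g ∉ K := fun l => no g l fun w hw => (h1 w hw).1
      obtain ⟨u, hu, k⟩ := Du.adjθ L gz (fun w hw => (h1 w hw).1) (out g gz gK).2 h2
      exact ⟨g * u, comm_mul gz (S.zc hz hu), by rwa [K.mul_mem_cancel_right (QK hu)], k.imp_right fun l => ⟨l, c⟩,
        .inl fun w hw => by rw [L.ρ_mul gz (S.zc hz hu), L.ρ_Q hu, (h1 w hw).2]⟩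
    by_cases c' : ∀ s, s * z = z * s → s * s = 1 → s ∉ K → ¬ ∀ w ∈ W, polar q w (ρ s w) = 0
    · push Not at c
      obtain ⟨s, h1, h2, h3⟩ := c
      exact ⟨s, h1, h3, .inl h2, .inr ⟨h2, c'⟩⟩
    · push Not at c'
      obtain ⟨s, h1, h2, h3, h4⟩ := c'
      exact ⟨s, h1, h3, .inl h2, .inl h4⟩
  have tt' : t * t = 1 ∨ t * t = z := tt.imp_right fun l => l.1
  obtain ⟨sw, sw'⟩ := out t tz tK
  have A : ∀ g ∈ K, t * g = g * t → (∀ u ∈ Q z, u * t = t * u → u * g = g * u) → (t * t = 1 → g * g = 1) → g ∈ Q z :=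
    fun g hg gt k gg => (Du.tsA L tz sw sw' tt' hg.1 hg.2 ((act g hg.1).resolve_right fun l => no g hg l.1).2 gt
      k).resolve_right fun ⟨⟨w, hw, l⟩, l'⟩ => al.elim (fun o => z01 ((o w hw).symm.trans l)) fun o =>
        o.2 _ (comm_mul tz hg.1) (by rw [mul_assoc, ← mul_assoc g, ← gt, mul_assoc, gg o.1, mul_one, o.1])
          (by rwa [K.mul_mem_cancel_right hg]) l'
  have B : ∀ d ∈ IX.Out z t K (Q z), ∃ u ∈ Q z, u * t = t * u ∧ d = u * t := by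
    rintro d ⟨h1, h2, h3, h4, -⟩
    have dz := (h4 z (S.mem hz) tz.symm).symm
    obtain ⟨g, h2⟩ := isConj_iff.1 h2
    have dd := S.zz (S.cj' hz h2)
    by_cases c : d ∈ K
    · have j : Adj Q D z d := ⟨hz, S.cj' hz h2, A d c h3 h4 fun _ => dd, h1⟩
      have := L.fix_of tz j.aQ h3
      rcases T.sub ⟨d, j, rfl⟩ with l | l
      exacts [(S.p_ne L j (Du.inter l (this ▸ sw _ l))).elim, (S.p_ne L j (Du.inter (this ▸ sw' _ l) l)).elim]
    · have c1 : d * t⁻¹ * t = t * (d * t⁻¹) := comm_mul h3.symm (comm_inv rfl)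
      exact ⟨_, A _ (I.i2 _ (mem_c1.2 dz) _ (inv_mem (mem_c1.2 tz)) c (mt inv_mem_iff.1 tK)) c1.symm
        (fun u hu l => (comm_mul (h4 u hu l).symm (comm_inv l.symm)).symm) fun o => by
          rw [inv_eq_of_mul_eq_one_left o, mul_assoc, ← mul_assoc t, h3, mul_assoc, o, mul_one, dd], c1, by simp⟩
  by_cases hb : ∀ w ∈ W, polar q w (ρ t w) = 0
  · refine I.parity n2 (S.lq hz) tz tK tt id fun d hd => (hd.2.2.2.2 ?_).elim
    obtain ⟨u, hu, ut, rfl⟩ := B d hd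
    have uz := S.zc hz hu
    have r : ∀ v, ρ (u * t) v = ρ t v := fun v => by rw [L.ρ_mul uz tz, L.ρ_Q hu]
    obtain ⟨g, h2⟩ := isConj_iff.1 hd.2.1
    exact (mul_mem_cancel_left (Du.altK L (comm_mul uz tz) (fun w hw => r w ▸ sw w hw) (fun w hw => r w ▸ sw' w hw) I
      hd.2.1 (S.zz (S.cj' hz h2)) (fun w hw => r w ▸ hb w hw) T.tv hu (comm_mul rfl ut.symm).symm)).1 (I.self hd.2.1)
  push Not at hb
  replace hb := hb.imp fun w l => And.intro l.1 (z2_ne l.2)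
  have F := fam_fam z K
  have E : ∀ u ∈ Q z, u * t = t * u → (IsConj z (u * t) ↔ IsConj z t) ∧
      (IsConj z (u * t) → (t ∈ XG.fam z K (u * t) ↔ u ∈ XG.fam z K t)) := fun u hu ut => by
    obtain ⟨-, x, hx, h1, h2⟩ := Du.tsB L tz sw sw' tt' hb hu ut
    have c : IsConj t (u * t) := isConj_iff.2 ⟨x, h2⟩
    refine ⟨⟨fun l => l.trans c.symm, fun l => l.trans c⟩, fun l => ?_⟩
    rw [← F.iff (g := x) (x := u), h2, conj_eq_iff.2 h1, ← mul_mem_cancel_right (inv_mem (I.self l)), ← inv_mem_iff]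
    simp [mul_assoc]
  by_cases zt : IsConj z t
  swap
  · refine I.parity n2 (S.lq hz) tz tK tt id fun d hd => (zt ?_).elim
    obtain ⟨u, hu, ut, rfl⟩ := B d hd
    exact (E u hu ut).1.1 hd.2.1
  obtain ⟨n, hn, nt, n1, nK⟩ := Du.tsN L tz sw sw' tt' I zt
  refine I.parity n2 (S.lq hz) tz tK tt (n * ·) fun d hd => ⟨?_, by simpa using n1,
    by rw [← mul_assoc, (Du.tsB L tz sw sw' tt' hb hn nt).1, one_mul]⟩
  obtain ⟨u, hu, ut, rfl⟩ := B d hd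
  obtain ⟨h1, h2, h3, h4, h5⟩ := hd
  have c := comm_mul nt ut
  obtain ⟨E1, E2⟩ := E _ (mul_mem hn hu) c
  rw [← mul_assoc]
  refine ⟨fun l => tK ((K.mul_mem_cancel_left (QK (mul_mem hn hu))).1 (l ▸ I.zK)), E1.2 zt,
    (comm_mul c rfl).symm, fun y hy yt => ?_, fun l => h5 (((E u hu ut).2 h2).2 ?_)⟩
  · have := fun v hv vt => (Du.tsB L tz sw sw' tt' hb (u := v) hv vt).1
    refine (comm_mul ?_ yt.symm).symm
    rw [← inv_eq_of_mul_eq_one_left (this _ (mul_mem (mul_mem hn hu) hy) (comm_mul c yt)), mul_inv_rev,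
      inv_eq_of_mul_eq_one_left (this _ hy yt), inv_eq_of_mul_eq_one_left (this _ (mul_mem hn hu) c)]
  · exact (mul_mem_cancel_left nK).1 ((E2 (E1.2 zt)).1 l)

end CF.W4
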