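import Cfsg.Agent.W4.A
import Cfsg.Agent.W4.S1

/-! The configuration of the linear group extended by a polarity does not occur in a simple group. -/

set_option autoImplicit false
set_option linter.unusedSectionVars false
set_option maxHeartbeats 400000
set_option synthInstance.maxSize 100000
set_option synthInstance.maxHeartbeats 400000

namespace CF.W4
open Cfsg Subgroup CF.Loc CF.Even CF.LX CF.J4 CF.Comp CF.Dce CF.XG QuadraticMap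
open CF.ThR (q8 b8)

variable {G V : Type*} [Group G] [Finite G] [AddCommGroup V] [Module (ZMod 2) V] {q : QuadraticForm (ZMod 2) V}
  {Q : G → Subgroup G} {D : Set G} {z t g : G} {π : G → ℕ} {a b c u v M N μ : ℕ} {p : G → V}
  {ρ : G → V →ₗ[ZMod 2] V} {φ : ℕ → V}

local notation "𝐀" => J4.Ac 8 (Q z) π

namespace St
variable (S : St Q D z π) (L : LM (Q z) z p q ρ)
include S L

theorem exists_φ : ∃ φ : ℕ → V, ∀ x ∈ Q z, φ (π x) = p x := by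
  choose! σ h1 h2 using S.co.surj
  refine ⟨fun c => p (σ c), fun x hx => ?_⟩
  have m := h1 _ (S.lt hx)
  rcases S.fr.eq_or hx m (h2 _ (S.lt hx)).symm with e | e <;> simp only [e]
  rw [S.lq.zc hx, L.zmul hx]

variable (hφ : ∀ x ∈ Q z, φ (π x) = p x)
include hφ

theorem φ_xor (ha : a < 256) (hb : b < 256) : φ (a ^^^ b) = φ a + φ b := by
  obtain ⟨x, hx, rfl⟩ := S.co.surj a ha
  obtain ⟨y, hy, rfl⟩ := S.co.surj b hb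
  rw [← S.co.mul x hx y hy, hφ _ (mul_mem hx hy), hφ x hx, hφ y hy, L.mul hx hy]

theorem φ_surj (w : V) : ∃ c < 256, φ c = w := let ⟨x, hx, e⟩ := L.surj w; ⟨_, S.lt hx, (hφ x hx).trans e⟩

theorem φ_zero (ha : a < 256) : φ a = 0 ↔ a = 0 := by
  obtain ⟨x, hx, rfl⟩ := S.co.surj a ha
  rw [hφ x hx, L.ker hx, S.co.ker x hx, S.lq.mem_z]

theorem φ_inj (ha : a < 256) (hb : b < 256) (e : φ a = φ b) : a = b :=
  Nat.eq_of_xor_eq_zero ((S.φ_zero L hφ (Nat.xor_lt_two_pow (n := 8) ha hb)).1 (by rw [S.φ_xor L hφ ha hb, e, vv]))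

theorem φ_q (ha : a < 256) : q (φ a) = 0 ↔ q8 a = 0 := by
  obtain ⟨x, hx, rfl⟩ := S.co.surj a ha
  rw [hφ x hx, ← L.sq hx, S.fr.sq_iff hx]

theorem φ_b (ha : a < 256) (hb : b < 256) : polar q (φ a) (φ b) = b8 a b := by
  obtain ⟨x, hx, rfl⟩ := S.co.surj a ha
  obtain ⟨y, hy, rfl⟩ := S.co.surj b hb
  have := (L.cm hx hy).symm.trans (S.fr.comm_iff hx hy)
  have l := ThR.b8_lt (π x) (π y)
  rw [hφ x hx, hφ y hy]
  generalize b8 (π x) (π y) = i at this l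
  interval_cases i
  exacts [this.2 rfl, z2_ne fun e => one_ne_zero (this.1 e)]

theorem φ_ρ (k : 𝐀 g⁻¹ M) (hc : c < 256) : ρ g (φ c) = φ (vm 8 c M) := by
  obtain ⟨x, hx, rfl⟩ := S.co.surj c hc
  have gz : g * z = z * g := inv_inv g ▸ comm_inv (S.acH k)
  rw [← k.2 x hx, inv_inv, hφ x hx, hφ _ (L.cj gz hx), L.act gz hx]

theorem φ_N (k : gN Q z π M) {f : V → V} (e : ∀ c < 256, f (φ c) = φ (vm 8 c M)) : f ∈ vN z ρ :=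
  let ⟨g, k⟩ := k
  ⟨g⁻¹, comm_inv (S.acH k), funext fun w => by
    obtain ⟨c, hc, rfl⟩ := S.φ_surj L hφ w
    rw [e c hc, S.φ_ρ L hφ (by rwa [inv_inv]) hc]⟩

theorem φ_mul (ha : a < 256) {i : ℕ} (hi : i < 2) : i * a < 256 ∧ φ (i * a) = (i : ZMod 2) • φ a := by
  interval_cases i
  · exact ⟨by simp, by simpa using (S.φ_zero L hφ (by decide)).2 rfl⟩
  · exact ⟨by simpa, by simp⟩

end St

/-- a transvection -/
noncomputable def tf (u v c : ℕ) : ℕ := c ^^^ b8 c u * v ^^^ b8 c v * u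

/-- the generators -/
noncomputable def sM : List ℕ :=
  [fld 64 (A0 0) 1, fld 64 (A0 0) 2, fld 64 (A0 0) 4, fld 64 (A1 0) 1, fld 64 (A1 0) 2, fld 64 (A1 0) 4]

/-- the flag of subspaces -/
noncomputable def sF (i : ℕ) : ℕ := nth 0 [255, 253, 249, 241, 225] i

/-- the symplectic polarity -/
noncomputable def sθ (c : ℕ) : ℕ := vm 8 c 0x1002048001204008

theorem s_gen : ∀ m ∈ sM, ∀ c < 256, vm 8 (vm 8 c m) m = c ∧ (c &&& 225 = 0 → vm 8 c m &&& 225 = 0) ∧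
    (c &&& 30 = 0 → vm 8 c m &&& 30 = 0) := by decide +kernel

theorem s_Γ : ∀ c < 256, ((GM 0).testBit c = true ↔ c ≠ 0 ∧ (c &&& 225 = 0 ∨ c &&& 30 = 0)) ∧
    (FM0.testBit c = true ↔ c &&& 225 = 0) ∧ ((F1 0).testBit c = true ↔ c &&& 30 = 0) ∧
    (c ≠ 0 → c &&& 225 = 0 → (ThR.clos sM 4 (2 ^ 16)).testBit c = true) ∧
    (c ≠ 0 → c &&& 30 = 0 → (ThR.clos sM 4 (2 ^ 1)).testBit c = true) := by
  rw [show ThR.clos sM 4 (2 ^ 16) = FM0 - 1 by decide +kernel, show ThR.clos sM 4 (2 ^ 1) = F1 0 - 1 by decide +kernel]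
  decide +kernel

theorem s_A : ∀ v < 256, v &&& 30 = 0 → b8 16 v = 0 → ∃ s < 8, ∀ c < 256, vm 8 c (fld 64 (A0 0) s) = tf 16 v c := by
  decide +kernel

theorem s_step : ∀ i < 4, ∀ v < 256, v &&& 30 = 0 → (∃ c < 256, c &&& sF i = 0 ∧ c ≠ 2 ^ (i + 1) ∧ v = sθ c) ∨
    ∃ w < 256, w = v ^^^ sθ (2 ^ (i + 1)) ∧ w &&& 30 = 0 ∧ ∃ u < 256, u &&& 225 = 0 ∧ b8 u w = 0 ∧ b8 u v = 1 ∧
      ∀ c < 32, c &&& sF (i + 1) = 0 → c &&& sF i = 0 ∧ tf u w (sθ c) = sθ c ∨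
        (c ^^^ 2 ^ (i + 1)) &&& sF i = 0 ∧ tf u w (sθ (c ^^^ 2 ^ (i + 1)) ^^^ v) = sθ c := by decide +kernel

theorem s_tf : ∀ u < 256, u &&& 225 = 0 → ∀ w < 256, w &&& 30 = 0 → b8 u w = 0 → tf u w 16 &&& 30 ≠ 0 := by
  decide +kernel

theorem s_end : ∀ c < 256, c &&& 30 = 0 → ∀ x < 256, x &&& 225 = 0 →
    (∀ u < 256, u &&& 225 = 0 → b8 x (sθ u) = b8 c u) → x = sθ c := by decide +kernel

theorem s_misc : ∀ c < 256, sθ (sθ c) = c ∧ (c &&& 225 = 0 → sθ c &&& 30 = 0 ∧ b8 c (sθ c) = 0 ∧ q8 c = 0 ∧ (c &&& 30 = 0 → c = 0)) ∧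
    (c &&& 30 = 0 → q8 c = 0) ∧ (c &&& 30 &&& 225 = 0 ∧ c &&& 225 &&& 30 = 0 ∧ c = c &&& 30 ^^^ c &&& 225) := by
  decide +kernel

theorem s_big : ∀ a < 256, a &&& 225 = 0 → ∀ b < 256, b &&& 30 = 0 →
    ∃ u < 256, u &&& 225 = 0 ∧ u ≠ 0 ∧ u ≠ a ∧ b8 u b = 0 := by decide +kernel

theorem s_both : ∀ a < 256, a &&& 30 = 0 → a ≠ 0 → ∀ b < 256, b &&& 30 = 0 → b ≠ 0 →
    ∃ u < 256, u &&& 225 = 0 ∧ b8 u a = 1 ∧ b8 u b = 1 := by decide +kernel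

theorem vm_bit {i : ℕ} (hi : i < 2) (c M : ℕ) : vm 8 (i * c) M = i * vm 8 c M := by
  interval_cases i <;> simp [vm_zero]

variable (Q z π) in
/-- a transvection is induced -/
def gT (u v : ℕ) : Prop := ∃ M, gN Q z π M ∧ ∀ c < 256, vm 8 c M = tf u v c

theorem St.T_act (S : St Q D z π) (k : gN Q z π M) (hu : u < 256) (hv : v < 256) (h : gT Q z π u v) :
    gT Q z π (vm 8 u M) (vm 8 v M) := by
  obtain ⟨N, -, n1, -, n3⟩ := S.N_inv k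
  obtain ⟨X, x1, x2⟩ := h
  refine ⟨_, S.N_mul (S.N_mul n1 x1) k, fun c hc => ?_⟩
  obtain ⟨g, k⟩ := k
  rw [vm_mm p8, vm_mm p8, x2 _ (vm_lt 8 _ _), tf, tf, vm_xor, vm_xor, vm_bit (ThR.b8_lt _ _), vm_bit (ThR.b8_lt _ _),
    ← S.b8_ac k (vm_lt 8 _ _) hu, ← S.b8_ac k (vm_lt 8 _ _) hv, n3 c hc]

namespace Cs
variable (C : Cs Q D z π 0 t)
include C

theorem s_N : ∀ m ∈ sM, gN Q z π m := by
  simp only [sM, List.forall_mem_cons, List.not_mem_nil, false_imp_iff, implies_true, and_true]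
  refine ⟨?_, ?_, ?_, ?_, ?_, ?_⟩ <;>
    first | exact St.A_N (C.f0.A' _ (by decide)) | exact St.A_N (C.f1.A' _ (by decide))

theorem s_F (hμ : μ = 225 ∨ μ = 30) (ha : a < 256) (a0 : a ≠ 0) (l : a &&& μ = 0) :
    ∀ c < 256, gF Q D z π a c ↔ c &&& μ = 0 := by
  have k : ∀ m ∈ sM, ∀ c < 256, c &&& μ = 0 → vm 8 c m &&& μ = 0 := fun m hm c hc => by
    rcases hμ with rfl | rfl
    exacts [(s_gen m hm c hc).2.1, (s_gen m hm c hc).2.2]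
  have st : ∀ m ∈ sM, ∀ p < 256, (¬ ∀ c < 256, gF Q D z π p c ↔ c &&& μ = 0) →
      ¬ ∀ c < 256, gF Q D z π (vm 8 p m) c ↔ c &&& μ = 0 := fun m hm p hp n P => n fun c hc =>
    ⟨fun l => (s_gen m hm c hc).1 ▸ k m hm _ (vm_lt 8 _ _) ((P _ (vm_lt 8 _ _)).1 (C.F_act l (C.s_N m hm))), fun l => by
      have := C.F_act ((P _ (vm_lt 8 _ _)).2 (k m hm c hc l)) (C.s_N m hm)
      rwa [(s_gen m hm p hp).1, (s_gen m hm c hc).1] at this⟩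
  by_contra n
  rcases hμ with rfl | rfl
  · exact ThR.reach1 st ha ((s_Γ a ha).2.2.2.1 a0 l) n fun c hc => (C.f0.F c hc).trans (s_Γ c hc).2.1
  · exact ThR.reach1 st ha ((s_Γ a ha).2.2.2.2 a0 l) n fun c hc => (C.f1.F c hc).trans (s_Γ c hc).2.2.1

theorem s_to (k : gN Q z π M) (hμ : μ = 225 ∨ μ = 30) : (∀ c < 256, c &&& μ = 0 → vm 8 c M &&& 225 = 0) ∨
    ∀ c < 256, c &&& μ = 0 → vm 8 c M &&& 30 = 0 := by
  obtain ⟨a, ha, a0, l⟩ : ∃ a < 256, a ≠ 0 ∧ a &&& μ = 0 := by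
    rcases hμ with rfl | rfl
    exacts [⟨16, by decide⟩, ⟨1, by decide⟩]
  have := (s_Γ _ (vm_lt 8 a M)).1.1 ((C.Γ _ (vm_lt 8 a M)).1 (C.Γ_act ((C.Γ a ha).2 ((s_Γ a ha).1.2
    ⟨a0, hμ.imp (fun e => by rwa [e] at l) fun e => by rwa [e] at l⟩)) k))
  exact this.2.imp (fun e c hc m => (C.s_F (.inl rfl) (vm_lt 8 _ _) this.1 e _ (vm_lt 8 _ _)).1
    (C.F_act ((C.s_F hμ ha a0 l c hc).2 m) k)) fun e c hc m =>
      (C.s_F (.inr rfl) (vm_lt 8 _ _) this.1 e _ (vm_lt 8 _ _)).1 (C.F_act ((C.s_F hμ ha a0 l c hc).2 m) k)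

theorem s_act (k : gN Q z π M) : (∀ c < 256, c &&& 225 = 0 → vm 8 c M &&& 225 = 0) ∧
    (∀ c < 256, c &&& 30 = 0 → vm 8 c M &&& 30 = 0) ∨ (∀ c < 256, c &&& 225 = 0 → vm 8 c M &&& 30 = 0) ∧
    ∀ c < 256, c &&& 30 = 0 → vm 8 c M &&& 225 = 0 := by
  have no : ∀ μ a, a < 256 → a &&& μ ≠ 0 → (∀ c < 256, c &&& 225 = 0 → vm 8 c M &&& μ = 0) →
      ¬ ∀ c < 256, c &&& 30 = 0 → vm 8 c M &&& μ = 0 := fun μ a ha n h1 h2 => by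
    obtain ⟨g, k⟩ := k
    obtain ⟨d, hd, rfl⟩ := C.vm_surj k ha
    obtain ⟨e1, e2, e3⟩ := (s_misc d hd).2.2.2
    refine n ?_
    rw [e3, vm_xor, Nat.and_xor_distrib_right, h1 _ (Nat.and_le_left.trans_lt hd) e1, h2 _ (Nat.and_le_left.trans_lt hd) e2]
    rfl
  rcases C.s_to k (.inl rfl) with h1 | h1 <;> rcases C.s_to k (.inr rfl) with h2 | h2
  exacts [(no _ 1 (by decide) (by decide) h1 h2).elim, .inl ⟨h1, h2⟩, .inr ⟨h1, h2⟩,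
    (no _ 2 (by decide) (by decide) h1 h2).elim]

theorem s_T (hu : u < 256) (l : u &&& 225 = 0) (hv : v < 256) (l' : v &&& 30 = 0) (e : b8 u v = 0) : gT Q z π u v := by
  by_cases u0 : u = 0
  · exact ⟨_, C.N_one, fun c hc => by
      rw [vm_mo p8 hc, tf, u0, (by decide +kernel : ∀ c < 256, b8 c 0 = 0) c hc]; simp⟩
  obtain ⟨M, k, rfl⟩ := C.tr u hu ((s_Γ u hu).1.2 ⟨u0, .inl l⟩)
  obtain ⟨N, -, n1, n2, n3⟩ := C.N_inv k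
  have m := ((C.s_act n1).resolve_right fun o => absurd (n2 16 (by decide) ▸ o.1 _ hu l) (by decide)).2 v hv l'
  obtain ⟨s, hs, x⟩ := s_A _ (vm_lt 8 v N) m (by
    obtain ⟨g, k⟩ := k
    rw [← C.b8_ac k (by decide) (vm_lt 8 _ _), n3 v hv, e])
  exact n3 v hv ▸ C.T_act k (by decide) (vm_lt 8 _ _) ⟨_, St.A_N (C.f0.A' s hs), x⟩

theorem s_θ : gN Q z π 0x1002048001204008 := by
  have : ∀ i ≤ 4, ∃ M, gN Q z π M ∧ (∀ c < 256, c &&& 225 = 0 → vm 8 c M &&& 30 = 0) ∧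
      (∀ c < 256, c &&& 30 = 0 → vm 8 c M &&& 225 = 0) ∧ ∀ c < 256, c &&& sF i = 0 → vm 8 c M = sθ c := fun i hi => by
    induction i with
    | zero =>
      obtain ⟨M, k, e⟩ := C.tr 1 (by decide) (by decide +kernel)
      obtain ⟨h1, h2⟩ := (C.s_act k).resolve_left fun o => absurd (e ▸ o.1 16 (by decide) (by decide)) (by decide)
      exact ⟨M, k, h1, h2, fun c hc l => by
        rw [(by decide +kernel : ∀ c < 256, c &&& sF 0 = 0 → c = 0) c hc l, sθ, vm_zero, vm_zero]⟩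
    | succ i ih =>
      obtain ⟨M, k, h1, h2, h3⟩ := ih (by omega)
      obtain ⟨l1, l2⟩ := (by decide : ∀ i < 4, 2 ^ (i + 1) < 256 ∧ 2 ^ (i + 1) &&& 225 = 0) i hi
      rcases s_step i hi _ (vm_lt 8 _ M) (h1 _ l1 l2) with ⟨c, hc, e1, n, e2⟩ | ⟨w, hw, -, e2, u, hu, e1, e3, -, e4⟩
      · obtain ⟨N, -, -, n2, -⟩ := C.N_inv k
        exact (n (by rw [← n2 c hc, h3 c hc e1, ← e2, n2 _ l1])).elim
      obtain ⟨X, x1, x2⟩ := C.s_T hu e1 hw e2 e3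
      obtain ⟨y1, y2⟩ := (C.s_act x1).resolve_right fun o =>
        s_tf u hu e1 w hw e2 e3 (x2 16 (by decide) ▸ o.1 16 (by decide) (by decide))
      refine ⟨_, C.N_mul k x1, fun c hc l => ?_, fun c hc l => ?_, fun c hc l => ?_⟩ <;> rw [vm_mm p8]
      · exact y2 _ (vm_lt 8 _ _) (h1 c hc l)
      · exact y1 _ (vm_lt 8 _ _) (h2 c hc l)
      rw [x2 _ (vm_lt 8 _ _)]
      rcases e4 c ((by decide +kernel : ∀ i < 4, ∀ c < 256, c &&& sF (i + 1) = 0 → c < 32) i hi c hc l) l with ⟨o, o'⟩ | ⟨o, o'⟩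
      · rw [h3 c hc o, o']
      · rwa [← h3 _ (Nat.xor_lt_two_pow (n := 8) hc l1) o, ← vm_xor, Nat.xor_assoc, Nat.xor_self, Nat.xor_zero] at o'
  obtain ⟨M, ⟨g, k⟩, -, h2, h3⟩ := this 4 le_rfl
  refine ⟨g, C.co.congr k fun c hc => ?_⟩
  obtain ⟨e1, e2, e3⟩ := (s_misc c hc).2.2.2
  have l : ∀ μ, c &&& μ < 256 := fun _ => Nat.and_le_left.trans_lt hc
  rw [e3, vm_xor, vm_xor, h3 _ (l _) e1, s_end _ (l _) e2 _ (vm_lt 8 _ M) (h2 _ (l _) e2) fun u hu o => by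
    rw [← h3 u hu o, C.b8_ac k (l _) hu]]
  rfl

/-- the configuration of the linear group extended by a polarity -/
theorem pS [IsSimpleGroup G] : False := by
  obtain ⟨p, q, ρ, L⟩ := exists_lm C.lq (r := 8) (C.sys.card C.zD)
  obtain ⟨φ, hφ⟩ := C.exists_φ L
  have add : ∀ μ {u v}, u ∈ {v | ∃ c < 256, c &&& μ = 0 ∧ φ c = v} → v ∈ {v | ∃ c < 256, c &&& μ = 0 ∧ φ c = v} →
      u + v ∈ {v | ∃ c < 256, c &&& μ = 0 ∧ φ c = v} := by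
    rintro μ _ _ ⟨a, ha, a1, rfl⟩ ⟨b, hb, b1, rfl⟩
    exact ⟨_, Nat.xor_lt_two_pow (n := 8) ha hb, by rw [Nat.and_xor_distrib_right, a1, b1]; rfl, C.φ_xor L hφ ha hb⟩
  refine no_t4 C.sys L C.zD (no_two C.lq) (W := {v | ∃ c < 256, c &&& 225 = 0 ∧ φ c = v})
    (W' := {v | ∃ c < 256, c &&& 30 = 0 ∧ φ c = v}) ⟨⟨add _, add _, ?_, ?_, fun v => ?_, ?_, ?_, ?_⟩, ?_, ?_, ?_, ?_⟩
  · rintro _ ⟨a, ha, a1, rfl⟩
    exact (C.φ_q L hφ ha).2 ((s_misc a ha).2.1 a1).2.2.1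
  · rintro _ ⟨a, ha, a1, rfl⟩
    exact (C.φ_q L hφ ha).2 ((s_misc a ha).2.2.1 a1)
  · obtain ⟨c, hc, rfl⟩ := C.φ_surj L hφ v
    obtain ⟨e1, e2, e3⟩ := (s_misc c hc).2.2.2
    have l : ∀ μ, c &&& μ < 256 := fun _ => Nat.and_le_left.trans_lt hc
    exact ⟨_, ⟨_, l _, e1, rfl⟩, _, ⟨_, l _, e2, rfl⟩, by rw [← C.φ_xor L hφ (l _) (l _), ← e3]⟩
  · rintro _ ⟨a, ha, a1, rfl⟩ ⟨b, hb, b1, e⟩
    exact (C.φ_zero L hφ ha).2 (((s_misc a ha).2.1 a1).2.2.2 (C.φ_inj L hφ hb ha e ▸ b1))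
  · rintro _ ⟨a, ha, a1, rfl⟩ _ ⟨b, hb, b1, rfl⟩
    obtain ⟨u, hu, u1, u0, n, e⟩ := s_big a ha a1 b hb b1
    exact ⟨_, ⟨u, hu, u1, rfl⟩, mt (C.φ_zero L hφ hu).1 u0, mt (C.φ_inj L hφ hu ha) n, by rw [C.φ_b L hφ hu hb, e]; rfl⟩
  · rintro _ ⟨a, ha, a1, rfl⟩ _ ⟨b, hb, b1, rfl⟩ a0 b0
    obtain ⟨u, hu, u1, e1, e2⟩ := s_both a ha a1 (mt (C.φ_zero L hφ ha).2 a0) b hb b1 (mt (C.φ_zero L hφ hb).2 b0)
    exact ⟨_, ⟨u, hu, u1, rfl⟩, by rw [C.φ_b L hφ hu ha, e1]; rfl, by rw [C.φ_b L hφ hu hb, e2]; rfl⟩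
  · rintro _ ⟨a, j, rfl⟩
    have l := C.lt j.aQ
    exact ((s_Γ _ l).1.1 ((C.Γ _ l).1 ⟨a, j, rfl⟩)).2.imp (fun e => ⟨_, l, e, hφ a j.aQ⟩) fun e => ⟨_, l, e, hφ a j.aQ⟩
  · rintro _ ⟨g, gz, rfl⟩
    obtain ⟨M, -, k⟩ := C.ex_ac (comm_inv gz)
    have m : ∀ μ ν, (∀ c < 256, c &&& μ = 0 → vm 8 c M &&& ν = 0) → ∀ w ∈ {v | ∃ c < 256, c &&& μ = 0 ∧ φ c = v},
        ρ g w ∈ {v | ∃ c < 256, c &&& ν = 0 ∧ φ c = v} := by
      rintro μ ν h _ ⟨c, hc, l, rfl⟩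
      exact ⟨_, vm_lt 8 _ _, h c hc l, (C.φ_ρ L hφ k hc).symm⟩
    exact (C.s_act ⟨_, k⟩).imp (And.imp (m _ _) (m _ _)) (And.imp (m _ _) (m _ _))
  · obtain ⟨g, k⟩ := C.s_θ
    have r : ∀ c < 256, ρ g⁻¹ (φ c) = φ (sθ c) := fun c hc => C.φ_ρ L hφ (by rwa [inv_inv]) hc
    refine ⟨_, ⟨g⁻¹, comm_inv (C.acH k), rfl⟩, ?_, fun v => ?_⟩
    · rintro _ ⟨c, hc, l, rfl⟩
      obtain ⟨e1, e2, -⟩ := (s_misc c hc).2.1 l
      exact ⟨⟨_, vm_lt 8 _ _, e1, (r c hc).symm⟩, by rw [r c hc, C.φ_b L hφ (b := sθ c) hc (vm_lt 8 _ _), e2]; rfl⟩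
    · obtain ⟨c, hc, rfl⟩ := C.φ_surj L hφ v
      rw [r c hc, r (sθ c) (vm_lt 8 _ _), (s_misc c hc).1]
  · rintro _ ⟨a, ha, a1, rfl⟩ _ ⟨b, hb, b1, rfl⟩ e
    rw [C.φ_b L hφ ha hb] at e
    obtain ⟨M, k, x⟩ := C.s_T ha a1 hb b1 (cast_inj (ThR.b8_lt _ _) two_pos e)
    refine C.φ_N L hφ k fun c hc => ?_
    obtain ⟨l1, e1⟩ := C.φ_mul L hφ hb (ThR.b8_lt c a)
    obtain ⟨l2, e2⟩ := C.φ_mul L hφ ha (ThR.b8_lt c b)
    rw [x c hc, tf, C.φ_xor L hφ (Nat.xor_lt_two_pow (n := 8) hc l1) l2, C.φ_xor L hφ hc l1, e1, e2, sg,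
      (C.φ_q L hφ hb).2 ((s_misc b hb).2.2.1 b1), zero_mul, add_zero, C.φ_b L hφ hc ha, C.φ_b L hφ hc hb]

end Cs

end CF.W4
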